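import Mathlib
import Cfsg.Agent.H568.NormMap
import Cfsg.Agent.Transfer.PGroupNormal
import Cfsg.Agent.S0126
set_option linter.all false

-- part: H568/Sep
section
/-!
A separation lemma: if `D ≤ P` are groups of automorphisms of the abelian `p'`-group `V`, `p` odd,
`D` of exponent `p`, `[D, P] ≤ ⟨z⟩` with `z` central of order `p` and fixed point free, then some
`u ≠ 1` has its stabilizer in `P` inside `C_P(D)`.
-/

set_option autoImplicit false

namespace Cfsg.Agent.H568.Sep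

open Subgroup Cfsg.Agent.H568.NormMap

variable {V : Type*} [CommGroup V]

theorem conj_fix {x y : MulAut V} {w : V} (h : x w = w) : (y * x * y⁻¹) (y w) = y w := by
  rw [MulAut.mul_apply, MulAut.mul_apply, MulAut.inv_apply, MulEquiv.symm_apply_apply, h]

/-- A central element commutes past. -/
theorem swap_of {g x c : MulAut V} (h : g * x * g⁻¹ * x⁻¹ = c) : g * x * g⁻¹ = c * x := by
  rw [← h]; group

theorem step [Finite V] {p : ℕ} [hpf : Fact p.Prime] (hp2 : p ≠ 2) (hV : ¬ p ∣ Nat.card V)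
    {z x y g : MulAut V} (hz : z ^ p = 1) (hzf : ∀ v, z v = v → v = 1)
    (hxz : Commute x z) (hgz : Commute g z)
    (hyx : y * x * y⁻¹ = x * z) {k : ℤ} (hgx : g * x * g⁻¹ = x * z ^ k) {u : V} (hu : x u = u)
    (hu1 : u ≠ 1) (hg : g (u * y u) = u * y u) : (p : ℤ) ∣ k ∧ g u = u ∧ g (y u) = y u := by
  have hp := hpf.out
  have hnz : ∀ (m : ℤ), ¬ (p : ℤ) ∣ m → ∀ w : V, nm p (z ^ m) w = 1 := fun m hm w =>
    nm_zpow_eq_one hp hz hm (fun h => hzf _ h)
  -- norms of fixed points of `x * z ^ i`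
  have key : ∀ (i j : ℤ) (w : V), (x * z ^ i) w = w → ¬ (p : ℤ) ∣ (j - i) →
      nm p (x * z ^ j) w = 1 := by
    intro i j w hw hij
    have h1 : x * z ^ j = (x * z ^ i) * z ^ (j - i) := by
      rw [mul_assoc, ← zpow_add]; congr 2; ring
    rw [h1, nm_mul_zpow _ hw]
    · exact hnz _ hij w
    · exact (hxz.zpow_right _).mul_left ((Commute.refl z).zpow_zpow _ _)
  have key0 : ∀ (i j : ℤ) (w : V), (x * z ^ i) w = w → (p : ℤ) ∣ (j - i) →
      nm p (x * z ^ j) w = w ^ p := by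
    intro i j w hw hij
    obtain ⟨l, hl⟩ := hij
    have h1 : x * z ^ j = x * z ^ i := by
      have : j = i + p * l := by linarith
      rw [this, zpow_add, zpow_mul, zpow_natCast, hz, one_zpow, mul_one]
    rw [h1, nm_of_fix _ hw]
  have hyu : (x * z ^ (1 : ℤ)) (y u) = y u := by
    rw [zpow_one, ← hyx]; exact conj_fix hu
  have hxu : (x * z ^ (0 : ℤ)) u = u := by rw [zpow_zero, mul_one]; exact hu
  have hgu : (x * z ^ k) (g u) = g u := by
    rw [← hgx]; exact conj_fix hu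
  have hgyu : (x * z ^ (k + 1)) (g (y u)) = g (y u) := by
    have : x * z ^ (k + 1) = g * (x * z ^ (1 : ℤ)) * g⁻¹ := by
      have h2 : g * (x * z ^ (1 : ℤ)) * g⁻¹ = (g * x * g⁻¹) * (g * z * g⁻¹) := by
        rw [zpow_one]; group
      have h3 : g * z * g⁻¹ = z := by rw [hgz.eq]; group
      rw [h2, hgx, h3, zpow_add, zpow_one, mul_assoc]
    rw [this]; exact conj_fix hyu
  rw [map_mul] at hg
  have hu1' : u ^ p ≠ 1 := fun h => hu1 (pow_inj hp hV (by rw [h, one_pow]))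
  have hyu1' : (y u) ^ p ≠ 1 := fun h => by
    have h4 : y u = 1 := pow_inj hp hV (by rw [h, one_pow])
    exact hu1 (by simpa using h4)
  have hp1 : ¬ (p : ℤ) ∣ 1 := by
    intro h
    have := Int.eq_one_of_dvd_one (by positivity) h
    exact hp.one_lt.ne' (by exact_mod_cast this)
  have hp1' : ¬ (p : ℤ) ∣ (0 - 1) := by
    rw [zero_sub, dvd_neg]; exact hp1
  -- the two norms
  have e0 : nm p (x * z ^ (0 : ℤ)) (u * y u) = u ^ p := by
    rw [nm_mul, key0 0 0 u hxu (by simp), key 1 0 (y u) hyu hp1', mul_one]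
  have e1 : nm p (x * z ^ (1 : ℤ)) (u * y u) = (y u) ^ p := by
    rw [nm_mul, key 0 1 u hxu (by simpa using hp1), key0 1 1 (y u) hyu (by simp), one_mul]
  have hk : (p : ℤ) ∣ k := by
    by_contra hk
    have hk' : ¬ (p : ℤ) ∣ (0 - k) := by rwa [zero_sub, dvd_neg]
    have a0 : (p : ℤ) ∣ (0 - (k + 1)) := by
      by_contra hk1
      rw [← hg, nm_mul, key k 0 _ hgu hk', key (k + 1) 0 _ hgyu hk1, one_mul] at e0
      exact hu1' e0.symm
    have a1 : (p : ℤ) ∣ (1 - k) := by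
      by_contra hk1
      have hk2 : ¬ (p : ℤ) ∣ (1 - (k + 1)) := by
        have : (1 : ℤ) - (k + 1) = 0 - k := by ring
        rwa [this]
      rw [← hg, nm_mul, key k 1 _ hgu hk1, key (k + 1) 1 _ hgyu hk2, one_mul] at e1
      exact hyu1' e1.symm
    have a2 : (p : ℤ) ∣ 2 := by
      have : (2 : ℤ) = (1 - k) - (0 - (k + 1)) := by ring
      rw [this]; exact dvd_sub a1 a0
    have a3 : p ∣ 2 := by exact_mod_cast a2
    exact hp2 ((Nat.prime_dvd_prime_iff_eq hp Nat.prime_two).mp a3)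
  have hk0 : (p : ℤ) ∣ (0 - k) := by rwa [zero_sub, dvd_neg]
  have hk1 : ¬ (p : ℤ) ∣ (0 - (k + 1)) := by
    intro h
    apply hp1
    have : (1 : ℤ) = (0 - k) - (0 - (k + 1)) := by ring
    rw [this]; exact dvd_sub hk0 h
  have h5 : g u = u := by
    rw [← hg, nm_mul, key0 k 0 _ hgu hk0, key (k + 1) 0 _ hgyu hk1, mul_one] at e0
    exact pow_inj hp hV e0
  refine ⟨hk, h5, ?_⟩
  rw [h5] at hg
  exact mul_left_cancel hg

theorem exists_sep [Finite V] {p : ℕ} [hpf : Fact p.Prime] (hp2 : p ≠ 2) (hV : ¬ p ∣ Nat.card V) :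
    ∀ n : ℕ, ∀ (P D : Subgroup (MulAut V)) (W : Subgroup V) (z : MulAut V), Nat.card P ≤ n →
      D ≤ P → z ∈ P → z ^ p = 1 → (∀ v, z v = v → v = 1) → (∀ g ∈ P, Commute g z) →
      (∀ d ∈ D, ∀ g ∈ P, g * d * g⁻¹ * d⁻¹ ∈ zpowers z) → (∀ d ∈ D, d ^ p = 1) →
      (∀ g ∈ P, ∀ w ∈ W, g w ∈ W) → W ≠ ⊥ →
      ∃ u ∈ W, u ≠ 1 ∧ ∀ g ∈ P, g u = u → ∀ d ∈ D, g * d = d * g := by
  have hp := hpf.out
  intro n
  induction n with
  | zero =>
    intro P D W z hn
    have : 0 < Nat.card P := Nat.card_pos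
    omega
  | succ n ih =>
    intro P D W z hn hDP hzP hz hzf hPz hDPz hDp hPW hW
    by_cases hcom : ∀ d ∈ D, ∀ g ∈ P, g * d = d * g
    · obtain ⟨u, hu, hu1⟩ := exists_ne_one hW
      exact ⟨u, hu, hu1, fun g hg _ d hd => hcom d hd g hg⟩
    have hex : ∃ x ∈ D, ∃ y ∈ P, y * x ≠ x * y ∧ (y ∈ D ∨ ∀ a ∈ D, ∀ b ∈ D, a * b = b * a) := by
      by_cases hD : ∀ a ∈ D, ∀ b ∈ D, a * b = b * a
      · push Not at hcom
        obtain ⟨x, hx, y, hy, hxy⟩ := hcom
        exact ⟨x, hx, y, hy, hxy, Or.inr hD⟩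
      · push Not at hD
        obtain ⟨y, hy, x, hx, hxy⟩ := hD
        exact ⟨x, hx, y, hDP hy, hxy, Or.inl hy⟩
    obtain ⟨x, hxD, y, hyP, hyx, hyD⟩ := hex
    -- the new central element
    obtain ⟨c, hc⟩ : ∃ c, c = y * x * y⁻¹ * x⁻¹ := ⟨_, rfl⟩
    have hcz : c ∈ zpowers z := hc ▸ hDPz x hxD y hyP
    have hc1 : c ≠ 1 := by
      intro h
      rw [h] at hc
      apply hyx
      have := hc.symm
      rw [mul_inv_eq_one, mul_inv_eq_iff_eq_mul] at this
      exact this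
    obtain ⟨m, hm⟩ := hcz
    have hm' : z ^ m = c := hm
    have hpm : ¬ (p : ℤ) ∣ m := by
      rintro ⟨l, rfl⟩
      apply hc1
      rw [← hm', zpow_mul, zpow_natCast, hz, one_zpow]
    have hcp : c ^ p = 1 := by
      rw [← hm', ← zpow_natCast, ← zpow_mul, mul_comm, zpow_mul, zpow_natCast, hz, one_zpow]
    have hcf : ∀ v, c v = v → v = 1 := by
      intro v hv
      exact hzf v (fix_of_zpow hp hz hpm (by rw [hm']; exact hv))
    have hcP : c ∈ P := by rw [← hm']; exact P.zpow_mem hzP m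
    have hPc : ∀ g ∈ P, Commute g c := by
      intro g hg
      rw [← hm']; exact (hPz g hg).zpow_right m
    have hzc : z ∈ zpowers c := by
      have hco : IsCoprime m (p : ℤ) := by
        rw [isCoprime_comm]
        exact (Prime.coprime_iff_not_dvd (Nat.prime_iff_prime_int.mp hp)).mpr hpm
      obtain ⟨a, b, hab⟩ := hco
      refine ⟨a, ?_⟩
      change c ^ a = z
      rw [← hm', ← zpow_mul]
      have : m * a = 1 - b * p := by linarith
      rw [this, zpow_sub, zpow_one, mul_comm b, zpow_mul, zpow_natCast, hz, one_zpow, inv_one,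
        mul_one]
    have hDPc : ∀ d ∈ D, ∀ g ∈ P, g * d * g⁻¹ * d⁻¹ ∈ zpowers c := by
      intro d hd g hg
      have h1 : zpowers z ≤ zpowers c := by rw [zpowers_le]; exact hzc
      exact h1 (hDPz d hd g hg)
    have hxP := hDP hxD
    have hyxc : y * x * y⁻¹ = x * c := by
      rw [(hPc x hxP).eq, hc]; group
    -- the centralizer of `x`
    set M : Subgroup (MulAut V) := P ⊓ centralizer {x} with hM
    have hMx : ∀ g, g ∈ M ↔ g ∈ P ∧ g * x = x * g := by
      intro g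
      rw [hM, mem_inf, mem_centralizer_singleton_iff]
    have hMlt : Nat.card M < Nat.card P := by
      have h1 : M < P := by
        refine lt_of_le_of_ne inf_le_left fun h => ?_
        have : y ∈ M := by rw [h]; exact hyP
        exact hyx ((hMx y).mp this).2
      exact Set.ncard_lt_ncard h1 (Set.toFinite _)
    set D₀ : Subgroup (MulAut V) := D ⊓ centralizer {x} with hD₀
    set W₀ : Subgroup V :=
      { carrier := {w | w ∈ W ∧ x w = w}
        mul_mem' := fun {a b} ha hb => ⟨W.mul_mem ha.1 hb.1, by rw [map_mul, ha.2, hb.2]⟩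
        one_mem' := ⟨W.one_mem, map_one _⟩
        inv_mem' := fun {a} ha => ⟨W.inv_mem ha.1, by rw [map_inv, ha.2]⟩ } with hW₀
    have hW₀mem : ∀ w, w ∈ W₀ ↔ w ∈ W ∧ x w = w := fun w => Iff.rfl
    have hW₀ne : W₀ ≠ ⊥ := by
      obtain ⟨k, w, hw, hw1, hkw⟩ := exists_fixed hp hV (x := x) (z := c) (hPc x hxP)
        (hDp x hxD) hcp hW (hPW x hxP) (hPW c hcP) (fun w _ h => hcf w h)
      have hconj : ∀ k : ℕ, y ^ k * x * (y ^ k)⁻¹ = x * c ^ k := by
        intro k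
        induction k with
        | zero => simp
        | succ k ihk =>
          have h1 : y ^ (k + 1) * x * (y ^ (k + 1))⁻¹ = y * (y ^ k * x * (y ^ k)⁻¹) * y⁻¹ := by
            rw [pow_succ']; group
          have h2 : y * (x * c ^ k) * y⁻¹ = (y * x * y⁻¹) * (y * c ^ k * y⁻¹) := by group
          have h3 : y * c ^ k * y⁻¹ = c ^ k := by
            rw [((hPc y hyP).pow_right k).eq]; group
          rw [h1, ihk, h2, hyxc, h3, mul_assoc, ← pow_succ']
      intro hbot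
      have h4 : (y ^ k)⁻¹ w ∈ W₀ := by
        refine ⟨hPW _ (P.inv_mem (P.pow_mem hyP k)) w hw, ?_⟩
        have h5 : x = (y ^ k)⁻¹ * (x * c ^ k) * ((y ^ k)⁻¹)⁻¹ := by
          rw [← hconj k]; group
        conv_lhs => rw [h5]
        exact conj_fix hkw
      rw [hbot, mem_bot] at h4
      apply hw1
      rwa [MulAut.inv_apply, MulEquiv.symm_apply_eq, map_one] at h4
    obtain ⟨u, hu, hu1, hsep⟩ := ih M D₀ W₀ c (by omega) (inf_le_inf_right _ hDP)
      ((hMx c).mpr ⟨hcP, ((hPc x hxP).eq).symm⟩) hcp hcf (fun g hg => hPc g ((hMx g).mp hg).1)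
      (fun d hd g hg => hDPc d hd.1 g ((hMx g).mp hg).1) (fun d hd => hDp d hd.1)
      (fun g hg w hw => by
        obtain ⟨hg1, hg2⟩ := (hMx g).mp hg
        refine ⟨hPW g hg1 w hw.1, ?_⟩
        rw [← MulAut.mul_apply, ← hg2, MulAut.mul_apply, hw.2])
      hW₀ne
    have huW : u ∈ W := hu.1
    have hux : x u = u := hu.2
    refine ⟨u * y u, W.mul_mem huW (hPW y hyP u huW), ?_, ?_⟩
    · -- `u * y u ≠ 1`
      intro h
      have h1 := step hp2 hV (z := c) (x := x) (y := y) (g := y) hcp hcf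
        (hPc x hxP) (hPc y hyP) hyxc (k := 1) (by rw [zpow_one]; exact hyxc) hux hu1
        (by rw [h, map_one])
      have h2 := Int.eq_one_of_dvd_one (by positivity) h1.1
      exact hp.one_lt.ne' (by exact_mod_cast h2)
    · intro g hg hgu d hd
      obtain ⟨k, hk⟩ := hDPc x hxD g hg
      have hgx : g * x * g⁻¹ = x * c ^ k := by
        have h1 : c ^ k = g * x * g⁻¹ * x⁻¹ := hk
        rw [((hPc x hxP).zpow_right k).eq, h1]; group
      obtain ⟨h1, h2, h3⟩ := step hp2 hV (z := c) (x := x) (y := y) (g := g) hcp hcf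
        (hPc x hxP) (hPc g hg) hyxc hgx hux hu1 hgu
      have hgx' : g * x = x * g := by
        obtain ⟨l, rfl⟩ := h1
        rw [zpow_mul, zpow_natCast, hcp, one_zpow, mul_one, mul_inv_eq_iff_eq_mul] at hgx
        exact hgx
      have hgM : g ∈ M := (hMx g).mpr ⟨hg, hgx'⟩
      have hg0 : ∀ d ∈ D₀, g * d = d * g := hsep g hgM h2
      rcases hyD with hyD | hab
      · -- `y ∈ D`
        have hgy : g * y = y * g := by
          obtain ⟨j, hj⟩ := hDPc y hyD g hg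
          have hj' : c ^ j = g * y * g⁻¹ * y⁻¹ := hj
          have hgy' : g * y = c ^ j * (y * g) := by rw [hj']; group
          have h4 : (c ^ j) (y u) = y u := by
            have h5 : (g * y) u = y u := by rw [MulAut.mul_apply]; exact h3
            rw [hgy', MulAut.mul_apply, MulAut.mul_apply, h2] at h5
            exact h5
          have h6 : (p : ℤ) ∣ j := by
            by_contra hj0
            have h7 := hcf _ (fix_of_zpow hp hcp hj0 h4)
            exact hu1 (by simpa using h7)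
          obtain ⟨l, rfl⟩ := h6
          rw [hgy', zpow_mul, zpow_natCast, hcp, one_zpow, one_mul]
        obtain ⟨i, hi⟩ := hDPc x hxD d (hDP hd)
        have hi' : c ^ i = d * x * d⁻¹ * x⁻¹ := hi
        have hyi : ∀ i : ℤ, y ^ i * x * (y ^ i)⁻¹ = x * c ^ i := by
          intro i
          have h8 : y ^ i * x * (y ^ i)⁻¹ * x⁻¹ = c ^ i := by
            -- conjugation by `x`: `x * y * x⁻¹ = c⁻¹ * y`
            have h9 : x * y * x⁻¹ = c⁻¹ * y := by
              have : y * x = x * c * y := by rw [← hyxc]; group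
              have h10 : x * y = c⁻¹ * (y * x) := by
                rw [this, (hPc x hxP).eq]; group
              rw [h10]; group
            have h11 : x * y ^ i * x⁻¹ = c⁻¹ ^ i * y ^ i := by
              rw [← conj_zpow, h9]
              exact ((hPc y hyP).symm.inv_left).mul_zpow i
            calc y ^ i * x * (y ^ i)⁻¹ * x⁻¹ = y ^ i * (x * y ^ i * x⁻¹)⁻¹ := by group
              _ = c ^ i := by rw [h11, inv_zpow]; group
          rw [((hPc x hxP).zpow_right i).eq, ← h8]; group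
        have hd0 : (y ^ i)⁻¹ * d ∈ D₀ := by
          refine ⟨D.mul_mem (D.inv_mem (D.zpow_mem hyD i)) hd, ?_⟩
          refine mem_centralizer_singleton_iff.mpr ?_
          have h12 : d * x = x * c ^ i * d := by
            rw [((hPc x hxP).zpow_right i).eq, hi']; group
          have h13 : (y ^ i)⁻¹ * (x * c ^ i) = x * (y ^ i)⁻¹ := by
            rw [← hyi i]; group
          calc (y ^ i)⁻¹ * d * x = (y ^ i)⁻¹ * (d * x) := by group
            _ = (y ^ i)⁻¹ * (x * c ^ i) * d := by rw [h12]; group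
            _ = x * ((y ^ i)⁻¹ * d) := by rw [h13]; group
        have h14 := hg0 _ hd0
        have h15 : Commute g (y ^ i) := (show Commute g y from hgy).zpow_right i
        have h16 : d = y ^ i * ((y ^ i)⁻¹ * d) := by group
        rw [h16]
        exact h15.mul_right h14
      · exact hg0 d ⟨hd, mem_centralizer_singleton_iff.mpr (hab d hd x hxD)⟩

end Cfsg.Agent.H568.Sep
end

-- part: H568/Imprim
section
/-!
Orbits of elements of a normal `p`-subgroup on an abelian `p'`-group: restriction to invariant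
subgroups and the imprimitive case.
-/

set_option autoImplicit false

namespace Cfsg.Agent.H568.Imprim

open Subgroup Cfsg.Agent.H568.NormMap

universe u

/-- Every nontrivial `a` in a normal `p`-subgroup `N` of `H ≤ Aut V` has a vector `v` fixed by no
`H`-conjugate of `a`. -/
def Claim (p : ℕ) (V : Type u) [CommGroup V] : Prop :=
  ∀ H N : Subgroup (MulAut V), N ≤ H → (∀ h ∈ H, ∀ n ∈ N, h * n * h⁻¹ ∈ N) → IsPGroup p N →
    ∀ a ∈ N, a ≠ 1 → ∃ v : V, ∀ h ∈ H, (h * a * h⁻¹) v ≠ v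

variable {V : Type u} [CommGroup V]

/-- Restriction of a group of automorphisms to an invariant subgroup. -/
def restr (H : Subgroup (MulAut V)) (W : Subgroup V) (hW : ∀ h ∈ H, ∀ w ∈ W, h w ∈ W) :
    H →* MulAut W where
  toFun h :=
    { toFun := fun w => ⟨(h : MulAut V) w, hW h h.2 w w.2⟩
      invFun := fun w => ⟨(h : MulAut V)⁻¹ w, hW _ (H.inv_mem h.2) w w.2⟩
      left_inv := fun w => Subtype.ext (by
        simp only [MulAut.inv_apply, MulEquiv.symm_apply_apply])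
      right_inv := fun w => Subtype.ext (by
        simp only [MulAut.inv_apply, MulEquiv.apply_symm_apply])
      map_mul' := fun w w' => Subtype.ext (map_mul _ _ _) }
  map_one' := by ext w; rfl
  map_mul' h h' := by ext w; rfl

theorem restr_apply (H : Subgroup (MulAut V)) (W : Subgroup V) (hW : ∀ h ∈ H, ∀ w ∈ W, h w ∈ W)
    (h : H) (w : W) : ((restr H W hW h w : W) : V) = (h : MulAut V) w := rfl

theorem of_claim {p : ℕ} {H N : Subgroup (MulAut V)} {W : Subgroup V}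
    (hW : ∀ h ∈ H, ∀ w ∈ W, h w ∈ W) (hNH : N ≤ H) (hHN : ∀ h ∈ H, ∀ n ∈ N, h * n * h⁻¹ ∈ N)
    (hN : IsPGroup p N) (hc : Claim p W) {a : MulAut V} (ha : a ∈ N) (haW : ∃ w ∈ W, a w ≠ w) :
    ∃ w ∈ W, ∀ h ∈ H, (h * a * h⁻¹) w ≠ w := by
  set ρ := restr H W hW with hρ
  obtain ⟨w, hw⟩ := hc (N.subgroupOf H |>.map ρ |> fun N' => ρ.range) ((N.subgroupOf H).map ρ)
    (by
      rintro _ ⟨n, _, rfl⟩
      exact ⟨n, rfl⟩)
    (by
      rintro _ ⟨h, rfl⟩ _ ⟨n, hn, rfl⟩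
      refine ⟨h * n * h⁻¹, hHN h h.2 n hn, by simp⟩)
    ((hN.comap_of_injective H.subtype (Subgroup.subtype_injective H)).map ρ)
    (ρ ⟨a, hNH ha⟩) ⟨⟨a, hNH ha⟩, ha, rfl⟩
    (by
      intro h
      obtain ⟨w, hw, haw⟩ := haW
      apply haw
      have := congrArg Subtype.val (DFunLike.congr_fun h (⟨w, hw⟩ : W))
      exact this)
  refine ⟨w, w.2, fun h hh heq => ?_⟩
  refine hw (ρ ⟨h, hh⟩) ⟨_, rfl⟩ (Subtype.ext ?_)
  rw [← map_mul, ← map_inv, ← map_mul]
  exact heq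

/-- The product over a group of automorphisms, as an endomorphism. -/
noncomputable def tr [Finite V] (N : Subgroup (MulAut V)) : V →* V where
  toFun v := ∏ᶠ n : N, (n : MulAut V) v
  map_one' := by simp
  map_mul' v w := by
    have : Finite N := inferInstance
    simp only [map_mul]
    exact finprod_mul_distrib (Set.toFinite _) (Set.toFinite _)

theorem tr_apply [Finite V] (N : Subgroup (MulAut V)) (v : V) :
    tr N v = ∏ᶠ n : N, (n : MulAut V) v := rfl

theorem apply_tr [Finite V] {N : Subgroup (MulAut V)} {m : MulAut V} (hm : m ∈ N) (v : V) :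
    m (tr N v) = tr N v := by
  have : Finite N := inferInstance
  rw [tr_apply, map_finprod _ (Set.toFinite _)]
  have h1 : ∀ n : N, m ((n : MulAut V) v) = ((Equiv.mulLeft (⟨m, hm⟩ : N) n : N) : MulAut V) v :=
    fun n => rfl
  simp only [h1]
  exact finprod_comp_equiv (Equiv.mulLeft (⟨m, hm⟩ : N)) (f := fun n : N => (n : MulAut V) v)

theorem tr_fix [Finite V] {N : Subgroup (MulAut V)} {v : V} (hv : ∀ n ∈ N, n v = v) :
    tr N v = v ^ Nat.card N := by
  have : Finite N := inferInstance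
  rw [tr_apply]
  have h1 : ∀ n : N, (n : MulAut V) v = v := fun n => hv n n.2
  simp only [h1]
  have := Fintype.ofFinite N
  rw [finprod_eq_prod_of_fintype, Finset.prod_const, Finset.card_univ, Nat.card_eq_fintype_card]

theorem tr_conj [Finite V] {N : Subgroup (MulAut V)} {h : MulAut V}
    (hN : ∀ n, n ∈ N ↔ h * n * h⁻¹ ∈ N) (v : V) : tr N (h v) = h (tr N v) := by
  have : Finite N := inferInstance
  rw [tr_apply, tr_apply, map_finprod _ (Set.toFinite _)]
  let e : N ≃ N :=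
    { toFun := fun n => ⟨h * n * h⁻¹, (hN _).mp n.2⟩
      invFun := fun n => ⟨h⁻¹ * n * h, (hN _).mpr (by
        have : h * (h⁻¹ * (n : MulAut V) * h) * h⁻¹ = n := by group
        rw [this]; exact n.2)⟩
      left_inv := fun n => Subtype.ext (by simp only; group)
      right_inv := fun n => Subtype.ext (by simp only; group) }
  rw [← finprod_comp_equiv e]
  refine finprod_congr fun n => ?_
  change (h * (n : MulAut V) * h⁻¹) (h v) = _
  rw [MulAut.mul_apply, MulAut.mul_apply, MulAut.inv_apply, MulEquiv.symm_apply_apply]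

/-- Reduction to the irreducible case. -/
theorem of_reducible [Finite V] {p : ℕ} [hpf : Fact p.Prime] (hV : ¬ p ∣ Nat.card V)
    (hIH : ∀ W : Subgroup V, W ≠ ⊤ → Claim p W) {H N : Subgroup (MulAut V)} (hNH : N ≤ H)
    (hHN : ∀ h ∈ H, ∀ n ∈ N, h * n * h⁻¹ ∈ N) (hN : IsPGroup p N) {a : MulAut V} (ha : a ∈ N)
    (ha1 : a ≠ 1) {W : Subgroup V} (hW : ∀ h ∈ H, ∀ w ∈ W, h w ∈ W) (hW0 : W ≠ ⊥) (hW1 : W ≠ ⊤) :
    ∃ v : V, ∀ h ∈ H, (h * a * h⁻¹) v ≠ v := by
  have hp := hpf.out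
  by_cases haW : ∃ w ∈ W, a w ≠ w
  · obtain ⟨w, -, hw⟩ := of_claim hW hNH hHN hN (hIH W hW1) ha haW
    exact ⟨w, hw⟩
  push Not at haW
  -- the normal closure of `a`
  set K : Subgroup (MulAut V) := closure {x | ∃ h ∈ H, x = h * a * h⁻¹} with hK
  have haK : a ∈ K := subset_closure ⟨1, H.one_mem, by group⟩
  have hKN : K ≤ N := by
    rw [hK, closure_le]
    rintro x ⟨h, hh, rfl⟩
    exact hHN h hh a ha
  have hHK' : ∀ h ∈ H, ∀ k ∈ K, h * k * h⁻¹ ∈ K := by
    intro h hh k hk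
    have h1 : K ≤ K.comap (MulAut.conj h).toMonoidHom := by
      conv_lhs => rw [hK]
      rw [closure_le]
      rintro x ⟨h', hh', rfl⟩
      refine subset_closure ⟨h * h', H.mul_mem hh hh', ?_⟩
      change h * (h' * a * h'⁻¹) * h⁻¹ = _
      group
    exact h1 hk
  have hHK : ∀ h ∈ H, ∀ k, k ∈ K ↔ h * k * h⁻¹ ∈ K := by
    intro h hh k
    refine ⟨hHK' h hh k, fun hk => ?_⟩
    have h1 := hHK' h⁻¹ (H.inv_mem hh) _ hk
    have h2 : h⁻¹ * (h * k * h⁻¹) * h⁻¹⁻¹ = k := by group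
    rwa [h2] at h1
  have hKW : ∀ k ∈ K, ∀ w ∈ W, k w = w := by
    intro k hk
    have h1 : K ≤ { carrier := {x | ∀ w ∈ W, x w = w}
                    mul_mem' := fun {x y} hx hy w hw => by
                      rw [MulAut.mul_apply, hy w hw, hx w hw]
                    one_mem' := fun w _ => rfl
                    inv_mem' := fun {x} hx w hw => fix_inv (hx w hw) : Subgroup (MulAut V) } := by
      rw [hK, closure_le]
      rintro x ⟨h, hh, rfl⟩ w hw
      rw [MulAut.mul_apply, MulAut.mul_apply, haW _ (hW _ (H.inv_mem hh) w hw),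
        MulAut.inv_apply, MulEquiv.apply_symm_apply]
    exact h1 hk
  obtain ⟨m, hm⟩ := IsPGroup.iff_card.mp (hN.to_le hKN)
  have hpow : ∀ v w : V, v ^ Nat.card K = w ^ Nat.card K → v = w := by
    intro v w h
    rw [hm] at h
    clear hm
    induction m with
    | zero => simpa using h
    | succ m ih =>
      rw [pow_succ, pow_mul, pow_mul] at h
      exact ih (pow_inj hp hV h)
  set U : Subgroup V := (tr K).ker with hU
  have hUH : ∀ h ∈ H, ∀ u ∈ U, h u ∈ U := by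
    intro h hh u hu
    rw [hU, MonoidHom.mem_ker] at hu ⊢
    rw [tr_conj (hHK h hh), hu, map_one]
  have hU1 : U ≠ ⊤ := by
    intro h
    obtain ⟨w, hw, hw1⟩ := exists_ne_one hW0
    have h1 : w ∈ U := by rw [h]; trivial
    rw [hU, MonoidHom.mem_ker, tr_fix (fun k hk => hKW k hk w hw)] at h1
    exact hw1 (hpow _ _ (by rw [h1, one_pow]))
  have haU : ∃ u ∈ U, a u ≠ u := by
    by_contra hcon
    push Not at hcon
    apply ha1
    ext v
    rw [MulAut.one_apply]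
    have h1 : v ^ Nat.card K * (tr K v)⁻¹ ∈ U := by
      rw [hU, MonoidHom.mem_ker, map_mul, map_pow, map_inv,
        tr_fix (v := tr K v) (fun k hk => apply_tr hk v), mul_inv_cancel]
    have h2 := hcon _ h1
    rw [map_mul, map_inv, apply_tr haK, map_pow] at h2
    exact hpow _ _ (mul_right_cancel h2)
  obtain ⟨w, -, hw⟩ := of_claim hUH hNH hHN hN (hIH U hU1) ha haU
  exact ⟨w, hw⟩

/-- A normal `p`-subgroup meets a maximal subgroup in a normal subgroup. -/
theorem conj_mem_of_covBy {G : Type*} [Group G] [Finite G] {p : ℕ} [Fact p.Prime]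
    {H N H₁ : Subgroup G} (hNH : N ≤ H) (hHN : ∀ h ∈ H, ∀ n ∈ N, h * n * h⁻¹ ∈ N)
    (hN : IsPGroup p N) (hcov : H₁ ⋖ H) {b : G} (hb : b ∈ N) (hb1 : b ∈ H₁) {h : G}
    (hh : h ∈ H) : h * b * h⁻¹ ∈ H₁ := by
  by_cases hle : N ≤ H₁
  · exact hle (hHN h hh b hb)
  -- the normalizer of `N ⊓ H₁`
  set L : Subgroup G := H ⊓ normalizer ((N ⊓ H₁ : Subgroup G) : Set G) with hL
  have hH₁L : H₁ ≤ L := by
    intro x hx
    refine ⟨hcov.le hx, ?_⟩
    refine mem_normalizer_iff.mpr fun y => ⟨fun hy => ?_, fun hy => ?_⟩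
    · exact ⟨hHN x (hcov.le hx) y hy.1, H₁.mul_mem (H₁.mul_mem hx hy.2) (H₁.inv_mem hx)⟩
    · have h1 : y = x⁻¹ * (x * y * x⁻¹) * x⁻¹⁻¹ := by group
      rw [h1]
      exact ⟨hHN _ (H.inv_mem (hcov.le hx)) _ hy.1,
        H₁.mul_mem (H₁.mul_mem (H₁.inv_mem hx) hy.2) (H₁.inv_mem (H₁.inv_mem hx))⟩
  have hnil : Group.IsNilpotent N := hN.isNilpotent
  have hlt : (N ⊓ H₁).subgroupOf N < ⊤ := by
    refine lt_top_iff_ne_top.mpr fun h => hle fun n hn => ?_
    have : (⟨n, hn⟩ : N) ∈ (N ⊓ H₁).subgroupOf N := by rw [h]; trivial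
    exact this.2
  obtain ⟨n, hn1, hn2⟩ := SetLike.exists_of_lt (Group.normalizerCondition_of_isNilpotent _ hlt)
  have hnL : (n : G) ∈ L := by
    refine ⟨hNH n.2, ?_⟩
    refine mem_normalizer_iff.mpr fun y => ?_
    rw [mem_normalizer_iff] at hn1
    constructor
    · intro hy
      have hy' : (⟨y, hy.1⟩ : N) ∈ (N ⊓ H₁).subgroupOf N := mem_subgroupOf.mpr hy
      exact mem_subgroupOf.mp ((hn1 ⟨y, hy.1⟩).mp hy')
    · intro hy
      have hyN : y ∈ N := by
        have h1 : y = (n : G)⁻¹ * (n * y * (n : G)⁻¹) * n := by group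
        rw [h1]
        exact N.mul_mem (N.mul_mem (N.inv_mem n.2) hy.1) n.2
      have hy' : n * (⟨y, hyN⟩ : N) * n⁻¹ ∈ (N ⊓ H₁).subgroupOf N := mem_subgroupOf.mpr hy
      exact mem_subgroupOf.mp ((hn1 ⟨y, hyN⟩).mpr hy')
  have hnH₁ : (n : G) ∉ H₁ := fun h => hn2 (by rw [mem_subgroupOf]; exact ⟨n.2, h⟩)
  have hLH : L = H := by
    have h1 : H₁ < L := lt_of_le_of_ne hH₁L fun h => hnH₁ (by rw [h]; exact hnL)
    by_contra hne
    exact hcov.2 h1 (lt_of_le_of_ne inf_le_left hne)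
  have hhL : h ∈ L := by rw [hLH]; exact hh
  exact ((mem_normalizer_iff.mp hhL.2 b).mp ⟨hb, hb1⟩).2

/-- The imprimitive case. -/
theorem of_imprimitive [Finite V] {p : ℕ} [hpf : Fact p.Prime]
    {H N H₁ : Subgroup (MulAut V)} (hNH : N ≤ H) (hHN : ∀ h ∈ H, ∀ n ∈ N, h * n * h⁻¹ ∈ N)
    (hN : IsPGroup p N) (hcov : H₁ ⋖ H) {V₁ V₂ : Subgroup V}
    (h1 : ∀ h ∈ H₁, ∀ v ∈ V₁, h v ∈ V₁) (h2 : ∀ h ∈ H₁, ∀ v ∈ V₂, h v ∈ V₂)
    (hd : V₁ ⊓ V₂ = ⊥) (hout : ∀ h ∈ H, h ∉ H₁ → ∀ v ∈ V₁, h v ∈ V₂) (hV₁ : V₁ ≠ ⊥)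
    (hc : Claim p V₁) {a : MulAut V} (ha : a ∈ N)
    (hmv : ∃ h ∈ H, ∃ w ∈ V₁, a (h w) ≠ h w) : ∃ v : V, ∀ h ∈ H, (h * a * h⁻¹) v ≠ v := by
  classical
  have hd' : ∀ v, v ∈ V₁ → v ∈ V₂ → v = 1 := fun v hv1 hv2 => by
    have : v ∈ V₁ ⊓ V₂ := ⟨hv1, hv2⟩
    rwa [hd, mem_bot] at this
  by_cases hall : ∀ h ∈ H, h * a * h⁻¹ ∈ H₁
  · obtain ⟨h₀, hh₀, w₀, hw₀, hmv₀⟩ := hmv
    -- replace `a` by a conjugate that moves a point of `V₁`
    set b := h₀⁻¹ * a * h₀ with hb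
    have hbN : b ∈ N := by
      have := hHN h₀⁻¹ (H.inv_mem hh₀) a ha
      rwa [inv_inv] at this
    have hbH₁ : b ∈ H₁ := by
      have := hall h₀⁻¹ (H.inv_mem hh₀)
      rwa [inv_inv] at this
    have hbw : ∃ w ∈ V₁, b w ≠ w := by
      refine ⟨w₀, hw₀, fun h => hmv₀ ?_⟩
      have h3 : a = h₀ * b * h₀⁻¹ := by rw [hb]; group
      conv_lhs => rw [h3]
      rw [MulAut.mul_apply, MulAut.mul_apply, MulAut.inv_apply, MulEquiv.symm_apply_apply, h]
    obtain ⟨v₁, hv₁, hv₁'⟩ := of_claim (H := H₁) (N := N ⊓ H₁) h1 inf_le_right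
      (fun h hh n hn => ⟨hHN h (hcov.le hh) n hn.1,
        H₁.mul_mem (H₁.mul_mem hh hn.2) (H₁.inv_mem hh)⟩) (hN.to_le inf_le_left) hc
      ⟨hbN, hbH₁⟩ hbw
    have : Fintype (H ⧸ H₁.subgroupOf H) := Fintype.ofFinite _
    -- the vector
    set v : V := ∏ q : H ⧸ H₁.subgroupOf H, ((q.out : H) : MulAut V) v₁ with hv
    refine ⟨v, fun h hh hfix => ?_⟩
    -- the coset of `h * h₀`
    set q₀ : H ⧸ H₁.subgroupOf H := QuotientGroup.mk (⟨h, hh⟩ * ⟨h₀, hh₀⟩ : H) with hq₀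
    set g : MulAut V := ((q₀.out : H) : MulAut V) with hg
    have hgH : g ∈ H := q₀.out.2
    have hu : g⁻¹ * (h * h₀) ∈ H₁ := by
      have h3 : (QuotientGroup.mk (q₀.out) : H ⧸ H₁.subgroupOf H) =
          QuotientGroup.mk (⟨h, hh⟩ * ⟨h₀, hh₀⟩ : H) := Quotient.out_eq' q₀
      rw [QuotientGroup.eq, mem_subgroupOf] at h3
      exact h3
    have hdec : g⁻¹ v = v₁ * ∏ q ∈ Finset.univ.erase q₀, (g⁻¹ * ((q.out : H) : MulAut V)) v₁ := by
      rw [hv, map_prod, ← Finset.mul_prod_erase Finset.univ _ (Finset.mem_univ q₀)]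
      congr 1
      rw [← hg, MulAut.inv_apply, MulEquiv.symm_apply_apply]
    set s : V := ∏ q ∈ Finset.univ.erase q₀, (g⁻¹ * ((q.out : H) : MulAut V)) v₁ with hs
    have hsV₂ : s ∈ V₂ := by
      refine Subgroup.prod_mem _ fun q hq => ?_
      refine hout _ (H.mul_mem (H.inv_mem hgH) q.out.2) (fun hmem => ?_) v₁ hv₁
      refine (Finset.mem_erase.mp hq).1 ?_
      have h3 : (QuotientGroup.mk (q₀.out) : H ⧸ H₁.subgroupOf H) = QuotientGroup.mk (q.out) := by
        rw [QuotientGroup.eq, mem_subgroupOf]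
        exact hmem
      rw [← Quotient.out_eq' q, ← Quotient.out_eq' q₀]
      exact h3.symm
    set b' := g⁻¹ * (h * a * h⁻¹) * g with hb'
    have hb'H₁ : b' ∈ H₁ := by
      have h3 := hall (g⁻¹ * h) (H.mul_mem (H.inv_mem hgH) hh)
      have h4 : g⁻¹ * h * a * (g⁻¹ * h)⁻¹ = b' := by rw [hb']; group
      rwa [h4] at h3
    have hfix' : b' (g⁻¹ v) = g⁻¹ v := by
      have h3 : b' (g⁻¹ v) = g⁻¹ ((h * a * h⁻¹) v) := by
        have h8 : g (g⁻¹ v) = v := by
          rw [← MulAut.mul_apply, mul_inv_cancel, MulAut.one_apply]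
        rw [hb', MulAut.mul_apply, MulAut.mul_apply, h8]
      rw [h3, hfix]
    rw [hdec, map_mul] at hfix'
    have h5 : b' v₁ * v₁⁻¹ = s * (b' s)⁻¹ := by
      rw [mul_inv_eq_iff_eq_mul, mul_assoc, mul_comm (b' s)⁻¹, ← mul_assoc, mul_comm s v₁, ← hfix']
      group
    have h6 : b' v₁ * v₁⁻¹ = 1 := by
      refine hd' _ (V₁.mul_mem (h1 _ hb'H₁ _ hv₁) (V₁.inv_mem hv₁)) ?_
      rw [h5]
      exact V₂.mul_mem hsV₂ (V₂.inv_mem (h2 _ hb'H₁ _ hsV₂))
    have h7 : b' = (g⁻¹ * (h * h₀)) * b * (g⁻¹ * (h * h₀))⁻¹ := by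
      rw [hb', hb]; group
    refine hv₁' _ hu ?_
    rw [← h7]
    exact mul_inv_eq_one.mp h6
  · -- a conjugate of `a` lies outside `H₁`
    push Not at hall
    obtain ⟨h₀, hh₀, hh₀'⟩ := hall
    obtain ⟨w, hw, hw1⟩ := exists_ne_one hV₁
    refine ⟨w, fun h hh hfix => ?_⟩
    have h3 : h * a * h⁻¹ ∈ H₁ := by
      by_contra hn
      have h4 := hout _ (H.mul_mem (H.mul_mem hh (hNH ha)) (H.inv_mem hh)) hn w hw
      rw [hfix] at h4
      exact hw1 (hd' w hw h4)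
    apply hh₀'
    have h5 := conj_mem_of_covBy hNH hHN hN hcov (hHN h hh a ha) h3
      (H.mul_mem hh₀ (H.inv_mem hh))
    have h6 : h₀ * h⁻¹ * (h * a * h⁻¹) * (h₀ * h⁻¹)⁻¹ = h₀ * a * h₀⁻¹ := by group
    rwa [h6] at h5

end Cfsg.Agent.H568.Imprim
end

-- part: H568/Elem
section
/-!
The case of a noncyclic elementary abelian invariant subgroup.
-/

set_option autoImplicit false

namespace Cfsg.Agent.H568.Elem

open Subgroup Cfsg.Agent.H568.NormMap Cfsg.Agent.H568.Imprim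

universe u

variable {V : Type u} [CommGroup V]

/-- Common fixed points. -/
def fixS (K : Subgroup (MulAut V)) : Subgroup V where
  carrier := {v | ∀ k ∈ K, k v = v}
  mul_mem' := fun {a b} ha hb k hk => by rw [map_mul, ha k hk, hb k hk]
  one_mem' := fun k _ => map_one k
  inv_mem' := fun {a} ha k hk => by rw [map_inv, ha k hk]

theorem mem_fixS {K : Subgroup (MulAut V)} {v : V} : v ∈ fixS K ↔ ∀ k ∈ K, k v = v := Iff.rfl

/-- Conjugate subgroup. -/
def cj (h : MulAut V) (K : Subgroup (MulAut V)) : Subgroup (MulAut V) :=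
  K.map (MulAut.conj h).toMonoidHom

theorem mem_cj {h : MulAut V} {K : Subgroup (MulAut V)} {x : MulAut V} :
    x ∈ cj h K ↔ h⁻¹ * x * h ∈ K := by
  constructor
  · rintro ⟨k, hk, rfl⟩
    change h⁻¹ * (h * k * h⁻¹) * h ∈ K
    have : h⁻¹ * (h * k * h⁻¹) * h = k := by group
    rwa [this]
  · intro hx
    refine ⟨_, hx, ?_⟩
    change h * (h⁻¹ * x * h) * h⁻¹ = x
    group

theorem cj_cj (g h : MulAut V) (K : Subgroup (MulAut V)) : cj g (cj h K) = cj (g * h) K := by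
  ext x
  rw [mem_cj, mem_cj, mem_cj]
  have : h⁻¹ * (g⁻¹ * x * g) * h = (g * h)⁻¹ * x * (g * h) := by group
  rw [this]

theorem cj_one (K : Subgroup (MulAut V)) : cj 1 K = K := by
  ext x
  rw [mem_cj]
  simp

theorem cj_mono {h : MulAut V} {K L : Subgroup (MulAut V)} (hKL : K ≤ L) : cj h K ≤ cj h L :=
  Subgroup.map_mono hKL

theorem cj_lt {h : MulAut V} {K L : Subgroup (MulAut V)} (hKL : K < L) : cj h K < cj h L := by
  refine lt_of_le_of_ne (cj_mono hKL.le) fun heq => hKL.ne ?_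
  have := congrArg (cj h⁻¹) heq
  rwa [cj_cj, cj_cj, inv_mul_cancel, cj_one, cj_one] at this

theorem cj_covBy {h : MulAut V} {K L : Subgroup (MulAut V)} (hKL : K ⋖ L) : cj h K ⋖ cj h L := by
  refine ⟨cj_lt hKL.1, fun M hM1 hM2 => ?_⟩
  have h1 := cj_lt (h := h⁻¹) hM1
  have h2 := cj_lt (h := h⁻¹) hM2
  rw [cj_cj, inv_mul_cancel, cj_one] at h1 h2
  exact hKL.2 h1 h2

theorem tr_cj [Finite V] {K : Subgroup (MulAut V)} {h : MulAut V} (v : V) :
    tr (cj h K) (h v) = h (tr K v) := by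
  have : Finite K := inferInstance
  rw [tr_apply, tr_apply, map_finprod _ (Set.toFinite _)]
  let e : K ≃ cj h K :=
    { toFun := fun n => ⟨h * n * h⁻¹, ⟨n, n.2, rfl⟩⟩
      invFun := fun n => ⟨h⁻¹ * n * h, mem_cj.mp n.2⟩
      left_inv := fun n => Subtype.ext (by simp only; group)
      right_inv := fun n => Subtype.ext (by simp only; group) }
  rw [← finprod_comp_equiv e]
  refine finprod_congr fun n => ?_
  change (h * (n : MulAut V) * h⁻¹) (h v) = _
  rw [MulAut.mul_apply, MulAut.mul_apply, MulAut.inv_apply, MulEquiv.symm_apply_apply]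

theorem pow_card_inj [Finite V] {p : ℕ} [hpf : Fact p.Prime] (hV : ¬ p ∣ Nat.card V)
    {K : Subgroup (MulAut V)} (hK : IsPGroup p K) {v w : V}
    (h : v ^ Nat.card K = w ^ Nat.card K) : v = w := by
  obtain ⟨m, hm⟩ := IsPGroup.iff_card.mp hK
  rw [hm] at h
  clear hm
  induction m with
  | zero => simpa using h
  | succ m ih =>
    rw [pow_succ, pow_mul, pow_mul] at h
    exact ih (pow_inj hpf.out hV h)

theorem of_elementary [Finite V] {p : ℕ} [hpf : Fact p.Prime] (hV : ¬ p ∣ Nat.card V)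
    (hIH : ∀ W : Subgroup V, W ≠ ⊤ → Claim p W) {H N E : Subgroup (MulAut V)} (hNH : N ≤ H)
    (hHN : ∀ h ∈ H, ∀ n ∈ N, h * n * h⁻¹ ∈ N) (hN : IsPGroup p N) (hEN : E ≤ N)
    (hHE : ∀ h ∈ H, ∀ e ∈ E, h * e * h⁻¹ ∈ E) (hEc : ∀ a ∈ E, ∀ b ∈ E, a * b = b * a)
    (hEp : ∀ e ∈ E, e ^ p = 1) (hEnc : ∀ x ∈ E, ¬ E ≤ zpowers x)
    (hirr : ∀ W : Subgroup V, (∀ h ∈ H, ∀ w ∈ W, h w ∈ W) → W = ⊥ ∨ W = ⊤)
    {a : MulAut V} (ha : a ∈ N) (ha1 : a ≠ 1) : ∃ v : V, ∀ h ∈ H, (h * a * h⁻¹) v ≠ v := by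
  have hp := hpf.out
  have hbt : (⊥ : Subgroup V) ≠ ⊤ := by
    intro h
    apply ha1
    ext v
    have hv : v ∈ (⊥ : Subgroup V) := by rw [h]; trivial
    rw [mem_bot] at hv
    rw [hv, map_one, map_one]
  have hpg : ∀ K ≤ E, IsPGroup p K := fun K hK => hN.to_le (hK.trans hEN)
  have hcjE : ∀ h ∈ H, cj h E = E := by
    intro h hh
    ext x
    rw [mem_cj]
    constructor
    · intro hx
      have h1 := hHE h hh _ hx
      have h2 : h * (h⁻¹ * x * h) * h⁻¹ = x := by group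
      rwa [h2] at h1
    · intro hx
      have h1 := hHE h⁻¹ (H.inv_mem hh) _ hx
      rwa [inv_inv] at h1
  -- fixed points of an invariant subgroup
  have hfixinv : ∀ K : Subgroup (MulAut V), (∀ h ∈ H, cj h K = K) → fixS K = ⊥ ∨ K = ⊥ := by
    intro K hK
    rcases hirr (fixS K) (fun h hh w hw k hk => by
      have h1 : h⁻¹ * k * h ∈ K := by
        rw [← mem_cj, hK h hh]; exact hk
      have h2 : k * h = h * (h⁻¹ * k * h) := by group
      rw [← MulAut.mul_apply, h2, MulAut.mul_apply, hw _ h1]) with h1 | h1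
    · exact Or.inl h1
    · right
      rw [eq_bot_iff]
      intro k hk
      rw [mem_bot]
      ext v
      have hv : v ∈ fixS K := by rw [h1]; trivial
      exact hv k hk
  have hE0 : fixS E = ⊥ := by
    refine (hfixinv E hcjE).resolve_right fun h => ?_
    exact hEnc 1 E.one_mem (by rw [h]; exact bot_le)
  -- the maximal `K₁`
  obtain ⟨K₁, hK₁⟩ := (Set.toFinite {K : Subgroup (MulAut V) | K ≤ E ∧ fixS K ≠ ⊥}).exists_maximal
    ⟨⊥, bot_le, fun h => hbt (h.symm.trans (eq_top_iff.mpr fun v _ k hk => by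
      rw [mem_bot] at hk; rw [hk]; rfl))⟩
  obtain ⟨⟨hK₁E, hK₁f⟩, hK₁max⟩ := hK₁
  have hnofix : ∀ e ∈ E, e ∉ K₁ → ∀ w ∈ fixS K₁, e w = w → w = 1 := by
    intro e he hne w hw hew
    by_contra hw1
    have h1 : K₁ ⊔ zpowers e ∈ {K : Subgroup (MulAut V) | K ≤ E ∧ fixS K ≠ ⊥} := by
      refine ⟨sup_le hK₁E (by rw [zpowers_le]; exact he), fun h => hw1 ?_⟩
      have h2 : w ∈ fixS (K₁ ⊔ zpowers e) := by
        have h3 : K₁ ⊔ zpowers e ≤
            { carrier := {x | x w = w}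
              mul_mem' := fun {x y} hx hy => by
                change (x * y) w = w
                rw [MulAut.mul_apply, hy, hx]
              one_mem' := rfl
              inv_mem' := fun {x} hx => fix_inv hx : Subgroup (MulAut V) } := by
          refine sup_le (fun k hk => hw k hk) ?_
          rw [zpowers_le]
          exact hew
        exact fun k hk => h3 hk
      rw [h, mem_bot] at h2
      exact h2
    exact hne (hK₁max h1 le_sup_left ((le_sup_right : zpowers e ≤ _) (mem_zpowers e)))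
  have hK₁lt : K₁ < E := lt_of_le_of_ne hK₁E fun h => hK₁f (by rw [h]; exact hE0)
  have hgen : ∀ x ∈ E, x ∉ K₁ → E ≤ K₁ ⊔ zpowers x := by
    intro x hx hxK y hy
    have hWinv : ∀ e ∈ E, ∀ w ∈ fixS K₁, e w ∈ fixS K₁ := by
      intro e he w hw k hk
      rw [← MulAut.mul_apply, hEc k (hK₁E hk) e he, MulAut.mul_apply, hw k hk]
    obtain ⟨k, w, hw, hw1, hkw⟩ := exists_fixed hp hV (x := y) (z := x) (hEc y hy x hx)
      (hEp y hy) (hEp x hx) hK₁f (hWinv y hy) (hWinv x hx) (hnofix x hx hxK)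
    have h1 : y * x ^ k ∈ K₁ := by
      by_contra hn
      exact hw1 (hnofix _ (E.mul_mem hy (E.pow_mem hx k)) hn w hw hkw)
    have h2 : y = (y * x ^ k) * (x ^ k)⁻¹ := by group
    rw [h2]
    exact mul_mem ((le_sup_left : K₁ ≤ _) h1)
      (inv_mem ((le_sup_right : zpowers x ≤ _) (pow_mem (mem_zpowers x) k)))
  have hcov₁ : K₁ ⋖ E := by
    refine ⟨hK₁lt, fun L hL1 hL2 => ?_⟩
    obtain ⟨x, hxL, hxK⟩ := SetLike.exists_of_lt hL1
    have h1 := hgen x (hL2.le hxL) hxK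
    exact hL2.not_ge (h1.trans (sup_le hL1.le (by rw [zpowers_le]; exact hxL)))
  have hK₁ne : K₁ ≠ ⊥ := by
    intro h
    obtain ⟨x, hxE, hxK⟩ := SetLike.exists_of_lt hK₁lt
    have h1 := hgen x hxE hxK
    rw [h, bot_sup_eq] at h1
    exact hEnc x hxE h1
  -- the stabilizer of `K₁`
  have hNlt : H ⊓ normalizer (K₁ : Set (MulAut V)) < H := by
    refine lt_of_le_of_ne inf_le_left fun h => ?_
    rcases hfixinv K₁ (fun g hg => by
      have h1 : g ∈ normalizer (K₁ : Set (MulAut V)) := by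
        rw [← h] at hg; exact hg.2
      ext x
      rw [mem_cj]
      exact (mem_normalizer_iff''.mp h1 x).symm) with h1 | h1
    · exact hK₁f h1
    · exact hK₁ne h1
  obtain ⟨H₁, hNH₁, hcovH⟩ := exists_le_covBy_of_lt hNlt
  -- the block
  let B : Set (Subgroup (MulAut V)) := {K | ∃ g ∈ H₁, K = cj g K₁}
  have hB1 : K₁ ∈ B := ⟨1, H₁.one_mem, (cj_one K₁).symm⟩
  have hBinv : ∀ g ∈ H₁, ∀ K, K ∈ B → cj g K ∈ B := by
    rintro g hg K ⟨u, hu, rfl⟩
    exact ⟨g * u, H₁.mul_mem hg hu, cj_cj g u K₁⟩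
  have hBout : ∀ h ∈ H, ∀ K, K ∈ B → cj h K ∈ B → h ∈ H₁ := by
    rintro h hh K ⟨u, hu, rfl⟩ ⟨u', hu', heq⟩
    have h1 : cj (u'⁻¹ * h * u) K₁ = K₁ := by
      have h2 := congrArg (cj u'⁻¹) heq
      rwa [cj_cj, cj_cj, cj_cj, inv_mul_cancel, cj_one] at h2
    have h3 : u'⁻¹ * h * u ∈ H₁ := by
      refine hNH₁ ⟨H.mul_mem (H.mul_mem (H.inv_mem (hcovH.le hu')) hh) (hcovH.le hu), ?_⟩
      refine mem_normalizer_iff''.mpr fun x => ?_
      rw [← mem_cj, h1]
    have h4 : h = u' * (u'⁻¹ * h * u) * u⁻¹ := by group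
    rw [h4]
    exact H₁.mul_mem (H₁.mul_mem hu' h3) (H₁.inv_mem hu)
  have hcjcov : ∀ h ∈ H, ∀ K : Subgroup (MulAut V), K ⋖ E → cj h K ⋖ E := by
    intro h hh K hK
    have := cj_covBy (h := h) hK
    rwa [hcjE h hh] at this
  have htr : ∀ (h : MulAut V) (K : Subgroup (MulAut V)) (v : V),
      tr K (h v) = h (tr (cj h⁻¹ K) v) := by
    intro h K v
    have := tr_cj (K := cj h⁻¹ K) (h := h) v
    rwa [cj_cj, mul_inv_cancel, cj_one] at this
  let V₁ : Subgroup V :=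
    { carrier := {v | ∀ K, K ⋖ E → K ∉ B → tr K v = 1}
      mul_mem' := fun {x y} hx hy K hK hKB => by rw [map_mul, hx K hK hKB, hy K hK hKB, one_mul]
      one_mem' := fun K _ _ => map_one _
      inv_mem' := fun {x} hx K hK hKB => by rw [map_inv, hx K hK hKB, inv_one] }
  let V₂ : Subgroup V :=
    { carrier := {v | ∀ K, K ⋖ E → K ∈ B → tr K v = 1}
      mul_mem' := fun {x y} hx hy K hK hKB => by rw [map_mul, hx K hK hKB, hy K hK hKB, one_mul]
      one_mem' := fun K _ _ => map_one _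
      inv_mem' := fun {x} hx K hK hKB => by rw [map_inv, hx K hK hKB, inv_one] }
  let U : Subgroup V :=
    { carrier := {v | ∀ K, K ⋖ E → tr K v = 1}
      mul_mem' := fun {x y} hx hy K hK => by rw [map_mul, hx K hK, hy K hK, one_mul]
      one_mem' := fun K _ => map_one _
      inv_mem' := fun {x} hx K hK => by rw [map_inv, hx K hK, inv_one] }
  have hU : U = ⊥ := by
    refine (hirr U fun h hh w hw K hK => ?_).resolve_right fun h => ?_
    · rw [htr, hw _ (hcjcov _ (H.inv_mem hh) K hK), map_one]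
    · obtain ⟨w, hw, hw1⟩ := exists_ne_one hK₁f
      have h1 : w ∈ U := by rw [h]; trivial
      have h2 := h1 K₁ hcov₁
      rw [tr_fix hw] at h2
      exact hw1 (pow_card_inj hV (hpg K₁ hK₁E) (by rw [h2, one_pow]))
  have hd : V₁ ⊓ V₂ = ⊥ := by
    rw [eq_bot_iff, ← hU]
    rintro v ⟨hv1, hv2⟩ K hK
    by_cases hKB : K ∈ B
    · exact hv2 K hK hKB
    · exact hv1 K hK hKB
  have h1 : ∀ h ∈ H₁, ∀ v ∈ V₁, h v ∈ V₁ := by
    intro h hh v hv K hK hKB
    rw [htr, hv _ (hcjcov _ (H.inv_mem (hcovH.le hh)) K hK), map_one]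
    intro hmem
    have := hBinv h hh _ hmem
    rw [cj_cj, mul_inv_cancel, cj_one] at this
    exact hKB this
  have h2 : ∀ h ∈ H₁, ∀ v ∈ V₂, h v ∈ V₂ := by
    intro h hh v hv K hK hKB
    rw [htr, hv _ (hcjcov _ (H.inv_mem (hcovH.le hh)) K hK) (hBinv _ (H₁.inv_mem hh) K hKB),
      map_one]
  have hout : ∀ h ∈ H, h ∉ H₁ → ∀ v ∈ V₁, h v ∈ V₂ := by
    intro h hh hh1 v hv K hK hKB
    rw [htr, hv _ (hcjcov _ (H.inv_mem hh) K hK), map_one]
    intro hmem
    refine hh1 (hBout h hh _ hmem ?_)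
    rwa [cj_cj, mul_inv_cancel, cj_one]
  have hsupE : ∀ K, K ⋖ E → K ≠ K₁ → ∀ v, v ∈ fixS K → v ∈ fixS K₁ → v = 1 := by
    intro K hK hne v hv hv'
    have h3 : K ⊔ K₁ = E := by
      have h4 : K < K ⊔ K₁ := by
        refine lt_of_le_of_ne le_sup_left fun h => ?_
        have h5 : K₁ ≤ K := by rw [h]; exact le_sup_right
        rcases h5.eq_or_lt with h6 | h6
        · exact hne h6.symm
        · exact hcov₁.2 h6 hK.1
      rcases (sup_le hK.le hcov₁.le : K ⊔ K₁ ≤ E).eq_or_lt with h5 | h5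
      · exact h5
      · exact absurd h5 (hK.2 h4)
    have h4 : v ∈ fixS E := by
      have h5 : E ≤ { carrier := {x | x v = v}
                      mul_mem' := fun {x y} hx hy => by
                        change (x * y) v = v
                        rw [MulAut.mul_apply, hy, hx]
                      one_mem' := rfl
                      inv_mem' := fun {x} hx => fix_inv hx : Subgroup (MulAut V) } := by
        rw [← h3]
        exact sup_le (fun k hk => hv k hk) (fun k hk => hv' k hk)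
      exact fun k hk => h5 hk
    rw [hE0, mem_bot] at h4
    exact h4
  have hfV₁ : fixS K₁ ≤ V₁ := by
    intro w hw K hK hKB
    refine hsupE K hK (fun h => hKB (by rw [h]; exact hB1)) _ (fun k hk => apply_tr hk w) ?_
    intro k hk
    rw [← tr_conj, hw k hk]
    intro n
    have hkE := hK₁E hk
    constructor
    · intro hn
      rw [hEc k hkE n (hK.le hn), mul_inv_cancel_right]
      exact hn
    · intro hn
      have h3 : n = k⁻¹ * (k * n * k⁻¹) * k := by group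
      rw [h3, hEc _ (E.inv_mem hkE) _ (hK.le hn), inv_mul_cancel_right]
      exact hn
  have hV₁0 : V₁ ≠ ⊥ := fun h => hK₁f (by rw [eq_bot_iff, ← h]; exact hfV₁)
  have hV₁1 : V₁ ≠ ⊤ := by
    intro h
    obtain ⟨g, hgH, hgH₁⟩ := SetLike.exists_of_lt hcovH.1
    have h3 : V₂ = ⊤ := by
      rw [eq_top_iff]
      intro v _
      have h4 : g⁻¹ v ∈ V₁ := by rw [h]; trivial
      have h5 := hout g hgH hgH₁ _ h4
      rwa [← MulAut.mul_apply, mul_inv_cancel, MulAut.one_apply] at h5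
    rw [h, h3, top_inf_eq] at hd
    exact hbt hd.symm
  refine of_imprimitive hNH hHN hN hcovH h1 h2 hd hout hV₁0 (hIH V₁ hV₁1) ha ?_
  by_contra hcon
  push Not at hcon
  let T : Subgroup V :=
    { carrier := {v | ∀ h ∈ H, a (h v) = h v}
      mul_mem' := fun {x y} hx hy h hh => by rw [map_mul, map_mul, hx h hh, hy h hh]
      one_mem' := fun h _ => by rw [map_one, map_one]
      inv_mem' := fun {x} hx h hh => by rw [map_inv, map_inv, hx h hh] }
  rcases hirr T (fun g hg w hw h hh => hw (h * g) (H.mul_mem hh hg)) with h3 | h3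
  · apply hV₁0
    rw [eq_bot_iff, ← h3]
    exact fun w hw h hh => hcon h hh w hw
  · apply ha1
    ext v
    have hv : v ∈ T := by rw [h3]; trivial
    exact hv 1 H.one_mem

end Cfsg.Agent.H568.Elem
end

-- part: H568/PGrp
section
/-!
A normal `p`-subgroup `N` of `H`, `p` odd, without noncyclic elementary abelian `H`-invariant
subgroups: either every nontrivial element has the same subgroup of order `p` among its powers, or
there is an `H`-invariant noncentral subgroup `D` of exponent `p` with `[D, N]` of order `p`.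
-/

set_option autoImplicit false

namespace Cfsg.Agent.H568.PGrp

open Subgroup Cfsg.Agent.Transfer.PGroupNormal

theorem mem_zpowers_swap {X : Type*} [Group X] {p : ℕ} (hp : p.Prime) {z w : X} (hw : w ^ p = 1)
    (hz : z ∈ zpowers w) (hz1 : z ≠ 1) : w ∈ zpowers z := by
  obtain ⟨m, hm⟩ := hz
  have hm' : w ^ m = z := hm
  have hpm : ¬ (p : ℤ) ∣ m := by
    rintro ⟨l, rfl⟩
    apply hz1
    rw [← hm', zpow_mul, zpow_natCast, hw, one_zpow]
  have hc : IsCoprime m (p : ℤ) := by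
    rw [isCoprime_comm]
    exact (Prime.coprime_iff_not_dvd (Nat.prime_iff_prime_int.mp hp)).mpr hpm
  obtain ⟨a, b, hab⟩ := hc
  refine ⟨a, ?_⟩
  change z ^ a = w
  rw [← hm', ← zpow_mul]
  have : m * a = 1 - b * p := by linarith
  rw [this, zpow_sub, zpow_one, mul_comm b, zpow_mul, zpow_natCast, hw, one_zpow, inv_one,
    mul_one]

/-- Between normal subgroups `Y < K` of a `p`-group there is a central element of order `p`
modulo `Y`. -/
theorem exists_mod {P : Type*} [Group P] [Finite P] {p : ℕ} [Fact p.Prime] (hP : IsPGroup p P)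
    {Y K : Subgroup P} (hY : Y.Normal) (hK : K.Normal) (hYK : Y < K) :
    ∃ x ∈ K, x ∉ Y ∧ x ^ p ∈ Y ∧ ∀ g : P, g * x * g⁻¹ * x⁻¹ ∈ Y := by
  have hK' : (K.map (QuotientGroup.mk' Y)).Normal := hK.map _ (QuotientGroup.mk'_surjective Y)
  have hne : K.map (QuotientGroup.mk' Y) ≠ ⊥ := by
    intro h
    rw [Subgroup.map_eq_bot_iff, QuotientGroup.ker_mk'] at h
    exact absurd h (not_le_of_gt hYK)
  obtain ⟨z, ⟨x, hx, rfl⟩, hzc, hz⟩ :=
    exists_mem_inf_center_orderOf (hP.to_quotient Y) (K.map (QuotientGroup.mk' Y)) hne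
  refine ⟨x, hx, ?_, ?_, fun g => ?_⟩
  · intro h
    have h1 : QuotientGroup.mk' Y x = 1 := (QuotientGroup.eq_one_iff x).mpr h
    rw [h1, orderOf_one] at hz
    exact (Fact.out : p.Prime).one_lt.ne hz
  · rw [← QuotientGroup.eq_one_iff, ← QuotientGroup.mk'_apply, map_pow, ← hz, pow_orderOf_eq_one]
  · rw [← QuotientGroup.eq_one_iff, ← QuotientGroup.mk'_apply]
    have h1 := Subgroup.mem_center_iff.mp hzc (QuotientGroup.mk' Y g)
    rw [map_mul, map_mul, map_mul, map_inv, map_inv, h1]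
    group

/-- The conclusion of the analysis. -/
structure Good {X : Type*} [Group X] (p : ℕ) (H N : Subgroup X) (z : X) (D : Subgroup X) : Prop where
  le : D ≤ N
  inv : ∀ h ∈ H, ∀ d ∈ D, h * d * h⁻¹ ∈ D
  exp : ∀ d ∈ D, d ^ p = 1
  comm : ∀ d ∈ D, ∀ g ∈ N, g * d * g⁻¹ * d⁻¹ ∈ zpowers z
  ncomm : ∃ d ∈ D, ∃ g ∈ N, g * d ≠ d * g

/-- The analysis once the maximal invariant abelian subgroup `Y` is known. -/
structure Setup {X : Type*} [Group X] (p : ℕ) (H N : Subgroup X) (z c : X) (Y : Subgroup X) :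
    Prop where
  NH : N ≤ H
  HN : ∀ h ∈ H, ∀ n ∈ N, h * n * h⁻¹ ∈ N
  pg : IsPGroup p N
  YN : Y ≤ N
  HY : ∀ h ∈ H, ∀ y ∈ Y, h * y * h⁻¹ ∈ Y
  Yc : ∀ x ∈ Y, ∀ y ∈ Y, x * y = y * x
  cen : ∀ x ∈ N, (∀ g ∈ N, g * x = x * g) → x ∈ Y
  max : ∀ T : Subgroup X, T ≤ N → (∀ h ∈ H, ∀ y ∈ T, h * y * h⁻¹ ∈ T) →
    (∀ x ∈ T, ∀ y ∈ T, x * y = y * x) → Y ≤ T → T ≤ Y
  zN : ∀ g ∈ N, g * z = z * g
  zY : z ∈ Y
  z1 : z ≠ 1
  zp : z ^ p = 1
  om : ∀ y ∈ Y, y ^ p = 1 → y ∈ zpowers z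
  cY : c ∈ Y
  gen : Y ≤ zpowers c

variable {X : Type*} [Group X] [Finite X] {p : ℕ} [hpf : Fact p.Prime] {H N Y : Subgroup X} {z c : X}

theorem case_one (hp2 : p ≠ 2) (S : Setup p H N z c Y) {x₀ : X} (hx₀ : x₀ ∈ N) (hx₀Y : x₀ ∉ Y)
    (hx₀c : ∀ y ∈ Y, x₀ * y = y * x₀) : ∃ D, Good p H N z D := by
  have hp := hpf.out
  -- centralizer of `Y` in `N`
  set K : Subgroup X := N ⊓ centralizer (Y : Set X) with hK
  have hKmem : ∀ x, x ∈ K ↔ x ∈ N ∧ ∀ y ∈ Y, x * y = y * x := by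
    intro x
    rw [hK, mem_inf, mem_centralizer_iff]
    exact and_congr_right fun _ => forall₂_congr fun y hy => ⟨fun h => h.symm, fun h => h.symm⟩
  have hHK : ∀ h ∈ H, ∀ k ∈ K, h * k * h⁻¹ ∈ K := by
    intro h hh k hk
    obtain ⟨hk1, hk2⟩ := (hKmem k).mp hk
    refine (hKmem _).mpr ⟨S.HN h hh k hk1, fun y hy => ?_⟩
    have h1 : h⁻¹ * y * h ∈ Y := by
      have := S.HY h⁻¹ (H.inv_mem hh) y hy
      rwa [inv_inv] at this
    have h2 := hk2 _ h1
    calc h * k * h⁻¹ * y = h * (k * (h⁻¹ * y * h)) * h⁻¹ := by group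
      _ = y * (h * k * h⁻¹) := by rw [h2]; group
  have hYK : Y ≤ K := fun y hy => (hKmem y).mpr ⟨S.YN hy, fun y' hy' => S.Yc y hy y' hy'⟩
  obtain ⟨x₁, hx₁K, hx₁Y, hx₁p, hx₁c⟩ := exists_mod S.pg (Y := Y.subgroupOf N)
    (K := K.subgroupOf N)
    ⟨fun n hn g => by
      rw [mem_subgroupOf] at hn ⊢
      exact S.HY g (S.NH g.2) n hn⟩
    ⟨fun n hn g => by
      rw [mem_subgroupOf] at hn ⊢
      exact hHK g (S.NH g.2) n hn⟩
    (by
      refine lt_of_le_of_ne (fun n hn => ?_) fun heq => hx₀Y ?_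
      · rw [mem_subgroupOf] at hn ⊢
        exact hYK hn
      · have h1 : (⟨x₀, hx₀⟩ : N) ∈ K.subgroupOf N := by
          rw [mem_subgroupOf]; exact (hKmem x₀).mpr ⟨hx₀, hx₀c⟩
        rw [← heq, mem_subgroupOf] at h1
        exact h1)
  rw [mem_subgroupOf] at hx₁K hx₁Y hx₁p
  -- the subgroup `E`
  let E : Subgroup X :=
    { carrier := {x | x ∈ K ∧ x ^ p ∈ Y ∧ ∀ g ∈ N, g * x * g⁻¹ * x⁻¹ ∈ Y}
      one_mem' := ⟨K.one_mem, by rw [one_pow]; exact Y.one_mem, fun g _ => by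
        have : g * 1 * g⁻¹ * 1⁻¹ = 1 := by group
        rw [this]; exact Y.one_mem⟩
      mul_mem' := by
        rintro x y ⟨hx1, hx2, hx3⟩ ⟨hy1, hy2, hy3⟩
        obtain ⟨hxN, hxc⟩ := (hKmem x).mp hx1
        obtain ⟨hyN, hyc⟩ := (hKmem y).mp hy1
        refine ⟨K.mul_mem hx1 hy1, ?_, fun g hg => ?_⟩
        · obtain ⟨w, hw⟩ : ∃ w, w = (x * y)⁻¹ * (y * x) := ⟨_, rfl⟩
          have hwY : w ∈ Y := by
            have h1 := hy3 x⁻¹ (N.inv_mem hxN)
            have h2 : w = y⁻¹ * (x⁻¹ * y * x⁻¹⁻¹ * y⁻¹) * y := by rw [hw]; group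
            have h3 := hyc _ h1
            have h4 : y⁻¹ * (x⁻¹ * y * x⁻¹⁻¹ * y⁻¹) * y = x⁻¹ * y * x⁻¹⁻¹ * y⁻¹ := by
              rw [mul_assoc, ← h3]; group
            rw [h2, h4]; exact h1
          have h5 : y * x = x * y * w := by rw [hw]; group
          rw [mul_pow_of_comm h5 (hxc w hwY).symm (hyc w hwY).symm]
          exact Y.mul_mem (Y.mul_mem hx2 hy2) (Y.pow_mem hwY _)
        · have h1 := hx3 g hg
          have h2 := hy3 g hg
          have h3 := hxc _ h2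
          have h4 : g * (x * y) * g⁻¹ * (x * y)⁻¹ =
              (g * x * g⁻¹ * x⁻¹) * (x * (g * y * g⁻¹ * y⁻¹) * x⁻¹) := by group
          rw [h4, h3, mul_inv_cancel_right]
          exact Y.mul_mem h1 h2
      inv_mem' := by
        rintro x ⟨hx1, hx2, hx3⟩
        obtain ⟨hxN, hxc⟩ := (hKmem x).mp hx1
        refine ⟨K.inv_mem hx1, by rw [inv_pow]; exact Y.inv_mem hx2, fun g hg => ?_⟩
        have h1 := hx3 g hg
        have h2 := hxc _ h1
        have h3 : g * x⁻¹ * g⁻¹ * x⁻¹⁻¹ = x⁻¹ * (g * x * g⁻¹ * x⁻¹)⁻¹ * x := by group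
        have h4 : x⁻¹ * (g * x * g⁻¹ * x⁻¹)⁻¹ * x = (g * x * g⁻¹ * x⁻¹)⁻¹ := by
          have h5 : Commute x (g * x * g⁻¹ * x⁻¹) := h2
          rw [mul_assoc, ← h5.inv_right.eq]; group
        rw [h3, h4]
        exact Y.inv_mem h1 }
  have hEmem : ∀ x, x ∈ E ↔ x ∈ K ∧ x ^ p ∈ Y ∧ ∀ g ∈ N, g * x * g⁻¹ * x⁻¹ ∈ Y := fun x => Iff.rfl
  have hEN : E ≤ N := fun x hx => ((hKmem x).mp hx.1).1
  have hYE : Y ≤ E := by
    intro y hy
    refine ⟨hYK hy, Y.pow_mem hy p, fun g hg => ?_⟩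
    exact Y.mul_mem (S.HY g (S.NH hg) y hy) (Y.inv_mem hy)
  have hHE : ∀ h ∈ H, ∀ x ∈ E, h * x * h⁻¹ ∈ E := by
    rintro h hh x ⟨hx1, hx2, hx3⟩
    refine ⟨hHK h hh x hx1, ?_, fun g hg => ?_⟩
    · rw [conj_pow]; exact S.HY h hh _ hx2
    · have h1 : h⁻¹ * g * h ∈ N := by
        have := S.HN h⁻¹ (H.inv_mem hh) g hg
        rwa [inv_inv] at this
      have h2 := S.HY h hh _ (hx3 _ h1)
      have h3 : g * (h * x * h⁻¹) * g⁻¹ * (h * x * h⁻¹)⁻¹ =
          h * ((h⁻¹ * g * h) * x * (h⁻¹ * g * h)⁻¹ * x⁻¹) * h⁻¹ := by group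
      rw [h3]; exact h2
  have hx₁E : (x₁ : X) ∈ E := by
    refine ⟨hx₁K, hx₁p, fun g hg => ?_⟩
    have := hx₁c ⟨g, hg⟩
    rw [mem_subgroupOf] at this
    exact this
  -- `p`-th powers are multiplicative on `E`
  have hpow : ∀ x ∈ E, ∀ y ∈ E, (x * y) ^ p = x ^ p * y ^ p := by
    intro x hx y hy
    obtain ⟨hxN, hxc⟩ := (hKmem x).mp hx.1
    obtain ⟨hyN, hyc⟩ := (hKmem y).mp hy.1
    obtain ⟨w, hw⟩ : ∃ w, w = (x * y)⁻¹ * (y * x) := ⟨_, rfl⟩
    have hwY : w ∈ Y := by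
      have h1 := hy.2.2 x⁻¹ (N.inv_mem hxN)
      have h2 : w = y⁻¹ * (x⁻¹ * y * x⁻¹⁻¹ * y⁻¹) * y := by rw [hw]; group
      have h3 := hyc _ h1
      have h4 : y⁻¹ * (x⁻¹ * y * x⁻¹⁻¹ * y⁻¹) * y = x⁻¹ * y * x⁻¹⁻¹ * y⁻¹ := by
        rw [mul_assoc, ← h3]; group
      rw [h2, h4]; exact h1
    have h5 : y * x = x * y * w := by rw [hw]; group
    have hcw : w ^ p = 1 := by
      -- `y ^ p` commutes with `x`
      have h6 : x * y * x⁻¹ = y * (y⁻¹ * (x * y * x⁻¹)) := by group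
      have h7 : x * y = y * x * w⁻¹ := by rw [h5]; group
      have h8 : x * y * x⁻¹ = w⁻¹ * y := by
        have h9 : Commute (y * x) w⁻¹ :=
          (Commute.mul_left (hyc w hwY) (hxc w hwY)).inv_right
        rw [h7, h9.eq]; group
      have h10 : x * y ^ p * x⁻¹ = (w⁻¹) ^ p * y ^ p := by
        rw [← conj_pow, h8]
        exact ((show Commute y w from hyc w hwY).symm.inv_left).mul_pow p
      have h11 : x * y ^ p * x⁻¹ = y ^ p := by
        rw [hxc _ hy.2.1]; group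
      rw [h11] at h10
      have h12 : (w⁻¹) ^ p = 1 := by
        have := h10.symm
        rwa [mul_eq_right] at this
      rw [inv_pow] at h12
      exact inv_eq_one.mp h12
    exact mul_pow_prime hp hp2 h5 (hxc w hwY).symm (hyc w hwY).symm hcw
  -- the subgroup `D`
  let D : Subgroup X :=
    { carrier := {x | x ∈ E ∧ x ^ p = 1}
      one_mem' := ⟨E.one_mem, one_pow _⟩
      mul_mem' := by
        rintro x y ⟨hx1, hx2⟩ ⟨hy1, hy2⟩
        exact ⟨E.mul_mem hx1 hy1, by rw [hpow x hx1 y hy1, hx2, hy2, one_mul]⟩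
      inv_mem' := by
        rintro x ⟨hx1, hx2⟩
        exact ⟨E.inv_mem hx1, by rw [inv_pow, hx2, inv_one]⟩ }
  have hHD : ∀ h ∈ H, ∀ x ∈ D, h * x * h⁻¹ ∈ D := by
    rintro h hh x ⟨hx1, hx2⟩
    exact ⟨hHE h hh x hx1, by rw [conj_pow, hx2]; group⟩
  -- an element of `D` outside `Y`
  have hex : ∃ d ∈ D, d ∉ Y := by
    by_contra hcon
    push Not at hcon
    -- `x₁ ^ p` generates `Y`
    obtain ⟨m, hm⟩ := S.gen hx₁p
    have hm' : c ^ m = (x₁ : X) ^ p := hm
    have hcx : (x₁ : X) * c = c * x₁ := ((hKmem _).mp hx₁K).2 c S.cY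
    have hpm : ¬ (p : ℤ) ∣ m := by
      rintro ⟨l, rfl⟩
      have h1 : (x₁ : X) * (c ^ l)⁻¹ ∈ D := by
        refine ⟨E.mul_mem hx₁E (E.inv_mem (hYE (Y.zpow_mem S.cY l))), ?_⟩
        have h2 : Commute (x₁ : X) (c ^ l)⁻¹ :=
          ((show Commute (x₁ : X) c from hcx).zpow_right l).inv_right
        rw [h2.mul_pow, ← hm', inv_pow, ← zpow_natCast, ← zpow_mul, mul_comm l, mul_inv_cancel]
      have h3 := hcon _ h1
      apply hx₁Y
      have h4 : (x₁ : X) = (x₁ : X) * (c ^ l)⁻¹ * c ^ l := by group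
      change (x₁ : X) ∈ Y
      rw [h4]
      exact Y.mul_mem h3 (Y.zpow_mem S.cY l)
    have hcx₁ : c ∈ zpowers (x₁ : X) := by
      -- order of `c` is a power of `p`
      obtain ⟨k, hk⟩ := (IsPGroup.iff_orderOf.mp S.pg) ⟨c, S.YN S.cY⟩
      rw [Subgroup.orderOf_mk] at hk
      have hc : IsCoprime m ((p ^ k : ℕ) : ℤ) := by
        rw [Nat.cast_pow]
        apply IsCoprime.pow_right
        rw [isCoprime_comm]
        exact (Prime.coprime_iff_not_dvd (Nat.prime_iff_prime_int.mp hp)).mpr hpm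
      obtain ⟨a, b, hab⟩ := hc
      have h1 : c = (c ^ m) ^ a := by
        have h2 : c ^ ((1 : ℤ)) = c ^ (m * a) := by
          have : (1 : ℤ) = m * a + (p ^ k : ℕ) * b := by linarith
          rw [this, zpow_add, zpow_mul c ((p ^ k : ℕ) : ℤ), zpow_natCast c (p ^ k), ← hk,
            pow_orderOf_eq_one, one_zpow, mul_one]
        rw [← zpow_mul, ← h2, zpow_one]
      rw [h1, hm']
      exact zpow_mem (pow_mem (mem_zpowers _) _) _
    have hEx : E ≤ zpowers (x₁ : X) := by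
      intro x hx
      obtain ⟨i, hi⟩ : x ^ p ∈ zpowers ((x₁ : X) ^ p) := by
        obtain ⟨j, hj⟩ := S.gen hx.2.1
        have hj' : c ^ j = x ^ p := hj
        -- `c ∈ ⟨x₁ ^ p⟩`
        have hcp : c ∈ zpowers ((x₁ : X) ^ p) := by
          obtain ⟨k, hk⟩ := (IsPGroup.iff_orderOf.mp S.pg) ⟨c, S.YN S.cY⟩
          rw [Subgroup.orderOf_mk] at hk
          have hc : IsCoprime m ((p ^ k : ℕ) : ℤ) := by
            rw [Nat.cast_pow]
            apply IsCoprime.pow_right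
            rw [isCoprime_comm]
            exact (Prime.coprime_iff_not_dvd (Nat.prime_iff_prime_int.mp hp)).mpr hpm
          obtain ⟨a, b, hab⟩ := hc
          have h2 : c ^ ((1 : ℤ)) = c ^ (m * a) := by
            have : (1 : ℤ) = m * a + (p ^ k : ℕ) * b := by linarith
            rw [this, zpow_add, zpow_mul c ((p ^ k : ℕ) : ℤ), zpow_natCast c (p ^ k), ← hk,
              pow_orderOf_eq_one, one_zpow, mul_one]
          refine ⟨a, ?_⟩
          change ((x₁ : X) ^ p) ^ a = c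
          rw [← hm', ← zpow_mul, ← h2, zpow_one]
        rw [← hj']
        exact zpow_mem hcp j
      have hi' : ((x₁ : X) ^ p) ^ i = x ^ p := hi
      have h1 : x * ((x₁ : X) ^ i)⁻¹ ∈ D := by
        refine ⟨E.mul_mem hx (E.inv_mem (E.zpow_mem hx₁E i)), ?_⟩
        rw [hpow _ hx _ (E.inv_mem (E.zpow_mem hx₁E i)), ← hi', inv_pow, ← zpow_natCast,
          ← zpow_natCast ((x₁ : X) ^ i), ← zpow_mul, ← zpow_mul, mul_comm i]
        simp
      have h2 := S.gen (hcon _ h1)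
      have h3 : zpowers c ≤ zpowers (x₁ : X) := by rw [zpowers_le]; exact hcx₁
      have h4 : x = x * ((x₁ : X) ^ i)⁻¹ * (x₁ : X) ^ i := by group
      rw [h4]
      exact mul_mem (h3 h2) (zpow_mem (mem_zpowers _) i)
    have hEY : E ≤ Y := by
      refine S.max E hEN hHE (fun x hx y hy => ?_) hYE
      obtain ⟨i, rfl⟩ := hEx hx
      obtain ⟨j, rfl⟩ := hEx hy
      exact (Commute.refl (x₁ : X)).zpow_zpow i j
    exact hx₁Y (hEY hx₁E)
  refine ⟨D, ⟨fun x hx => hEN hx.1, hHD, fun x hx => hx.2, fun d hd g hg => ?_, ?_⟩⟩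
  · have h1 : g * d * g⁻¹ * d⁻¹ ∈ Y := hd.1.2.2 g hg
    have h2 : g * d * g⁻¹ * d⁻¹ ∈ D := D.mul_mem (hHD g (S.NH hg) d hd) (D.inv_mem hd)
    exact S.om _ h1 h2.2
  · obtain ⟨d, hd, hdY⟩ := hex
    refine ⟨d, hd, ?_⟩
    by_contra hcon
    push Not at hcon
    exact hdY (S.cen d (hEN hd.1) hcon)

theorem case_three (hp2 : p ≠ 2) (S : Setup p H N z c Y)
    (hcent : ∀ x ∈ N, (∀ y ∈ Y, x * y = y * x) → x ∈ Y) (hne : ¬ N ≤ Y) :
    ∃ D, Good p H N z D := by
  have hp := hpf.out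
  have hccent : ∀ x ∈ N, x * c = c * x → x ∈ Y := by
    intro x hx hxc
    refine hcent x hx fun y hy => ?_
    obtain ⟨i, rfl⟩ := S.gen hy
    exact (show Commute x c from hxc).zpow_right i
  -- `N` is not cyclic
  have hncyc : ¬ IsCyclic N := by
    intro h
    refine hne (S.max N le_rfl S.HN (fun x hx y hy => ?_) S.YN)
    obtain ⟨g, hg⟩ := h
    obtain ⟨i, hi⟩ := hg ⟨x, hx⟩
    obtain ⟨j, hj⟩ := hg ⟨y, hy⟩
    have h1 := ((Commute.refl g).zpow_zpow i j).eq
    rw [show g ^ i = ⟨x, hx⟩ from hi, show g ^ j = ⟨y, hy⟩ from hj] at h1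
    exact congrArg Subtype.val h1
  obtain ⟨A', hA'n, ⟨hA'c, hA'p⟩, hA'card⟩ := Cfsg.Agent.S0126.result hp2 S.pg hncyc
  set A : Subgroup X := A'.map N.subtype with hA
  have hAN : A ≤ N := by
    rintro _ ⟨x, _, rfl⟩
    exact x.2
  have hAp : ∀ x ∈ A, x ^ p = 1 := by
    rintro _ ⟨x, hx, rfl⟩
    have := hA'p x hx
    rw [← map_pow, this, map_one]
  have hNA : ∀ g ∈ N, ∀ x ∈ A, g * x * g⁻¹ ∈ A := by
    rintro g hg _ ⟨x, hx, rfl⟩
    exact ⟨⟨g, hg⟩ * x * ⟨g, hg⟩⁻¹, hA'n.conj_mem x hx _, rfl⟩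
  have hAcard : Nat.card A = p ^ 2 := by
    rw [hA, Nat.card_congr (A'.equivMapOfInjective N.subtype (Subgroup.subtype_injective N)).toEquiv.symm]
    exact hA'card
  -- `z ∈ A`
  have hzA : z ∈ A := by
    have hA'ne : A' ≠ ⊥ := by
      intro h
      rw [h, Subgroup.card_bot] at hA'card
      have : 1 < p ^ 2 := Nat.one_lt_pow (by norm_num) hp.one_lt
      omega
    obtain ⟨w, hwA, hwc, hw⟩ := exists_mem_inf_center_orderOf S.pg A' hA'ne
    have hwY : (w : X) ∈ Y := by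
      refine S.cen w w.2 fun g hg => ?_
      have := Subgroup.mem_center_iff.mp hwc ⟨g, hg⟩
      exact congrArg Subtype.val this
    have hwp : (w : X) ^ p = 1 := hAp _ ⟨w, hwA, rfl⟩
    have hw1 : (w : X) ≠ 1 := by
      intro h
      have : w = 1 := Subtype.ext h
      rw [this, orderOf_one] at hw
      exact hp.one_lt.ne hw
    have h1 := mem_zpowers_swap hp S.zp (S.om _ hwY hwp) hw1
    exact (zpowers_le.mpr (show (w : X) ∈ A from ⟨w, hwA, rfl⟩)) h1
  -- an element of `A` outside `Y`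
  have hex : ∃ b ∈ A, b ∉ Y := by
    by_contra hcon
    push Not at hcon
    have h1 : A ≤ zpowers z := fun x hx => S.om x (hcon x hx) (hAp x hx)
    have h2 := Subgroup.card_le_of_le h1
    rw [hAcard, Nat.card_zpowers, orderOf_eq_prime S.zp S.z1] at h2
    have : p ^ 1 < p ^ 2 := Nat.pow_lt_pow_right hp.one_lt (by norm_num)
    rw [pow_one] at this
    omega
  obtain ⟨b, hbA, hbY⟩ := hex
  have hAY : ∀ x ∈ A, ∀ y ∈ Y, x * y * x⁻¹ * y⁻¹ ∈ zpowers z := by
    intro x hx y hy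
    refine S.om _ (Y.mul_mem (S.HY x (S.NH (hAN hx)) y hy) (Y.inv_mem hy)) (hAp _ ?_)
    have h1 : x * y * x⁻¹ * y⁻¹ = x * (y * x * y⁻¹)⁻¹ := by group
    rw [h1]
    exact A.mul_mem hx (A.inv_mem (hNA y (S.YN hy) x hx))
  -- `b` acts nontrivially on `c`
  obtain ⟨β, hβ⟩ := hAY b hbA c S.cY
  have hβ' : z ^ β = b * c * b⁻¹ * c⁻¹ := hβ
  have hβp : ¬ (p : ℤ) ∣ β := by
    rintro ⟨l, rfl⟩
    rw [zpow_mul, zpow_natCast, S.zp, one_zpow] at hβ'
    apply hbY
    refine hccent b (hAN hbA) ?_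
    have : b * c * b⁻¹ * c⁻¹ * c * b = c * b := by rw [← hβ', one_mul]
    rw [← this]; group
  have hzc : ∀ g ∈ N, Commute g z := fun g hg => S.zN g hg
  have hbc : b * c * b⁻¹ = z ^ β * c := by rw [hβ']; group
  have hbj : ∀ j : ℤ, b ^ j * c * (b ^ j)⁻¹ = z ^ (β * j) * c := by
    intro j
    have h1 : c * b * c⁻¹ = z ^ (-β) * b := by
      have h2 : b * c = z ^ β * c * b := by rw [← hbc]; group
      have h3 : c * b = z ^ (-β) * (b * c) := by rw [h2]; group
      rw [h3]; group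
    have h4 : c * b ^ j * c⁻¹ = (z ^ (-β)) ^ j * b ^ j := by
      rw [← conj_zpow, h1]
      exact (((hzc b (hAN hbA)).symm.zpow_left (-β))).mul_zpow j
    calc b ^ j * c * (b ^ j)⁻¹ = b ^ j * (c * b ^ j * c⁻¹)⁻¹ * c := by group
      _ = z ^ (β * j) * c := by
        have h5 : (z ^ (-β * j))⁻¹ = z ^ (β * j) := by
          rw [← zpow_neg]; congr 1; ring
        rw [h4, ← zpow_mul, mul_inv_rev, h5]; group
  -- characterization of `A`
  have hchar : ∀ x ∈ N, x ^ p = 1 → (∀ y ∈ Y, x * y * x⁻¹ * y⁻¹ ∈ zpowers z) → x ∈ A := by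
    intro x hx hxp hxY
    obtain ⟨γ, hγ⟩ := hxY c S.cY
    have hγ' : z ^ γ = x * c * x⁻¹ * c⁻¹ := hγ
    have hxc : x * c * x⁻¹ = z ^ γ * c := by rw [hγ']; group
    have hco : IsCoprime β (p : ℤ) := by
      rw [isCoprime_comm]
      exact (Prime.coprime_iff_not_dvd (Nat.prime_iff_prime_int.mp hp)).mpr hβp
    obtain ⟨s, t, hst⟩ := hco
    set j : ℤ := s * γ with hj
    have hzj : z ^ (β * j) = z ^ γ := by
      have h1 : β * j = γ - p * (t * γ) := by
        rw [hj]; linear_combination γ * hst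
      rw [h1, zpow_sub, zpow_mul z (p : ℤ), zpow_natCast, S.zp, one_zpow, inv_one, mul_one]
    have hbjN : b ^ j ∈ N := N.zpow_mem (hAN hbA) j
    have hyY : (b ^ j)⁻¹ * x ∈ Y := by
      refine hccent _ (N.mul_mem (N.inv_mem hbjN) hx) ?_
      have h1 : x * c = b ^ j * c * (b ^ j)⁻¹ * x := by
        rw [hbj j, hzj, ← hxc]; group
      rw [mul_assoc, h1]; group
    obtain ⟨y, hy⟩ : ∃ y, y = (b ^ j)⁻¹ * x := ⟨_, rfl⟩
    rw [← hy] at hyY
    have hxy : x = b ^ j * y := by rw [hy]; group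
    have hyp : y ^ p = 1 := by
      have h1 := hAY (b ^ j) (A.zpow_mem hbA j) y hyY
      obtain ⟨i, hi⟩ := h1
      have hi' : z ^ i = b ^ j * y * (b ^ j)⁻¹ * y⁻¹ := hi
      have h2 : y * b ^ j = b ^ j * y * (z ^ i)⁻¹ := by
        have hcom : Commute (b ^ j * y) (z ^ i)⁻¹ :=
          ((hzc _ (N.mul_mem hbjN (S.YN hyY))).zpow_right i).inv_right
        rw [hcom.eq, hi']; group
      have h3 : (b ^ j * y) ^ p = (b ^ j) ^ p * y ^ p := by
        refine mul_pow_prime hp hp2 h2 ?_ ?_ ?_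
        · exact ((hzc _ hbjN).zpow_right i).inv_right.symm
        · exact ((hzc _ (S.YN hyY)).zpow_right i).inv_right.symm
        · rw [inv_pow, ← zpow_natCast, ← zpow_mul, mul_comm, zpow_mul, zpow_natCast, S.zp,
            one_zpow, inv_one]
      rw [← hxy, hxp, hAp _ (A.zpow_mem hbA j), one_mul] at h3
      exact h3.symm
    rw [hxy]
    refine A.mul_mem (A.zpow_mem hbA j) ?_
    exact (zpowers_le.mpr hzA) (S.om y hyY hyp)
  have hHz : ∀ h ∈ H, h * z * h⁻¹ ∈ zpowers z := by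
    intro h hh
    refine S.om _ (S.HY h hh z S.zY) ?_
    rw [conj_pow, S.zp]; group
  have hHzp : ∀ h ∈ H, ∀ w ∈ zpowers z, h * w * h⁻¹ ∈ zpowers z := by
    rintro h hh _ ⟨i, rfl⟩
    change h * z ^ i * h⁻¹ ∈ zpowers z
    rw [← conj_zpow]
    exact zpow_mem (hHz h hh) i
  refine ⟨A, ⟨hAN, ?_, hAp, ?_, ?_⟩⟩
  · intro h hh x hx
    refine hchar _ (S.HN h hh x (hAN hx)) (by rw [conj_pow, hAp x hx]; group) fun y hy => ?_
    have h1 : h⁻¹ * y * h ∈ Y := by
      have := S.HY h⁻¹ (H.inv_mem hh) y hy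
      rwa [inv_inv] at this
    have h2 := hHzp h hh _ (hAY x hx _ h1)
    have h3 : h * (x * (h⁻¹ * y * h) * x⁻¹ * (h⁻¹ * y * h)⁻¹) * h⁻¹ =
        h * x * h⁻¹ * y * (h * x * h⁻¹)⁻¹ * y⁻¹ := by group
    rwa [h3] at h2
  · intro d hd g hg
    refine S.om _ ?_ (hAp _ (A.mul_mem (hNA g hg d hd) (A.inv_mem hd)))
    refine hccent _ (N.mul_mem (N.mul_mem (N.mul_mem hg (hAN hd)) (N.inv_mem hg))
      (N.inv_mem (hAN hd))) ?_
    -- `g * d * g⁻¹` and `d` act in the same way on `c`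
    obtain ⟨γ, hγ⟩ := hAY d hd c S.cY
    have hγ' : z ^ γ = d * c * d⁻¹ * c⁻¹ := hγ
    have hdc : d * c * d⁻¹ = z ^ γ * c := by rw [hγ']; group
    obtain ⟨m, hm⟩ : g⁻¹ * c * g ∈ zpowers c := by
      refine S.gen ?_
      have := S.HY g⁻¹ (H.inv_mem (S.NH hg)) c S.cY
      rwa [inv_inv] at this
    have hm' : c ^ m = g⁻¹ * c * g := hm
    obtain ⟨e, he⟩ := S.gen S.zY
    have he' : c ^ e = z := he
    have hzm : z ^ m = z := by
      have h1 : g⁻¹ * z * g = z := by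
        rw [mul_assoc, ← S.zN g hg]; group
      have h2 : g⁻¹ * z * g = z ^ m := by
        have h3 : g⁻¹ * c ^ e * g⁻¹⁻¹ = (g⁻¹ * c * g⁻¹⁻¹) ^ e := by rw [conj_zpow]
        rw [inv_inv] at h3
        rw [← he', h3, ← hm', ← zpow_mul, ← zpow_mul, mul_comm]
      rw [← h2, h1]
    have hzγ : (z ^ γ) ^ m = z ^ γ := by
      rw [← zpow_mul, mul_comm, zpow_mul, hzm]
    have h5 : g * d * g⁻¹ * c * (g * d * g⁻¹)⁻¹ = z ^ γ * c := by
      have h6 : g * d * g⁻¹ * c * (g * d * g⁻¹)⁻¹ = g * (d * (g⁻¹ * c * g) * d⁻¹) * g⁻¹ := by group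
      have h7 : d * c ^ m * d⁻¹ = (z ^ γ) ^ m * c ^ m := by
        rw [← conj_zpow, hdc]
        exact ((hzc c (S.YN S.cY)).symm.zpow_left γ).mul_zpow m
      rw [h6, ← hm', h7, hzγ, hm']
      have h8 : Commute g (z ^ γ) := (hzc g hg).zpow_right γ
      calc g * (z ^ γ * (g⁻¹ * c * g)) * g⁻¹ = (g * z ^ γ) * g⁻¹ * c := by group
        _ = z ^ γ * c := by rw [h8.eq]; group
    -- so `g d g⁻¹ d⁻¹` commutes with `c`
    have h9 : g * d * g⁻¹ * c * (g * d * g⁻¹)⁻¹ = d * c * d⁻¹ := by rw [h5, hdc]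
    have h10 : d⁻¹ * (g * d * g⁻¹) * c * (d⁻¹ * (g * d * g⁻¹))⁻¹ = c := by
      have : d⁻¹ * (g * d * g⁻¹) * c * (d⁻¹ * (g * d * g⁻¹))⁻¹ =
          d⁻¹ * (g * d * g⁻¹ * c * (g * d * g⁻¹)⁻¹) * d := by group
      rw [this, h9]; group
    -- `A` is abelian
    have hAc : ∀ x ∈ A, ∀ y ∈ A, x * y = y * x := by
      rintro _ ⟨x, hx, rfl⟩ _ ⟨y, hy, rfl⟩
      have := congrArg (Subtype.val) (hA'c.is_comm.comm (⟨x, hx⟩ : A') ⟨y, hy⟩)
      exact congrArg (Subtype.val) this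
    have h11 : g * d * g⁻¹ * d⁻¹ = d⁻¹ * (g * d * g⁻¹) :=
      hAc _ (hNA g hg d hd) _ (A.inv_mem hd)
    rw [h11]
    rw [mul_inv_eq_iff_eq_mul] at h10
    exact h10
  · refine ⟨b, hbA, c, S.YN S.cY, fun h => hbY (hccent b (hAN hbA) h.symm)⟩

end Cfsg.Agent.H568.PGrp
end

-- part: H568/PGrpB
section
/-!
Existence of the maximal invariant abelian subgroup and summary of the analysis.
-/

set_option autoImplicit false

namespace Cfsg.Agent.H568.PGrp

open Subgroup Cfsg.Agent.Transfer.PGroupNormal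

variable {X : Type*} [Group X] [Finite X] {p : ℕ} [hpf : Fact p.Prime] {H N : Subgroup X}

theorem exists_setup (hNH : N ≤ H) (hHN : ∀ h ∈ H, ∀ n ∈ N, h * n * h⁻¹ ∈ N)
    (hN : IsPGroup p N) (hN0 : N ≠ ⊥)
    (hnoE : ∀ E : Subgroup X, E ≤ N → (∀ h ∈ H, ∀ e ∈ E, h * e * h⁻¹ ∈ E) →
      (∀ a ∈ E, ∀ b ∈ E, a * b = b * a) → (∀ e ∈ E, e ^ p = 1) → ∃ x ∈ E, E ≤ zpowers x) :
    ∃ (z c : X) (Y : Subgroup X), Setup p H N z c Y := by
  have hp := hpf.out
  -- the centre of `N`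
  let Zc : Subgroup X :=
    { carrier := {x | x ∈ N ∧ ∀ g ∈ N, g * x = x * g}
      one_mem' := ⟨N.one_mem, fun g _ => by rw [mul_one, one_mul]⟩
      mul_mem' := by
        rintro x y ⟨hx1, hx2⟩ ⟨hy1, hy2⟩
        refine ⟨N.mul_mem hx1 hy1, fun g hg => ?_⟩
        rw [← mul_assoc, hx2 g hg, mul_assoc, hy2 g hg, mul_assoc]
      inv_mem' := by
        rintro x ⟨hx1, hx2⟩
        exact ⟨N.inv_mem hx1, fun g hg => (show Commute g x from hx2 g hg).inv_right⟩ }
  have hHZ : ∀ h ∈ H, ∀ x ∈ Zc, h * x * h⁻¹ ∈ Zc := by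
    rintro h hh x ⟨hx1, hx2⟩
    refine ⟨hHN h hh x hx1, fun g hg => ?_⟩
    have h1 : h⁻¹ * g * h ∈ N := by
      have := hHN h⁻¹ (H.inv_mem hh) g hg
      rwa [inv_inv] at this
    have h2 := hx2 _ h1
    calc g * (h * x * h⁻¹) = h * ((h⁻¹ * g * h) * x) * h⁻¹ := by group
      _ = h * x * h⁻¹ * g := by rw [h2]; group
  obtain ⟨Y, hZY, hYmax⟩ := (Set.toFinite {Y : Subgroup X | Y ≤ N ∧
    (∀ h ∈ H, ∀ y ∈ Y, h * y * h⁻¹ ∈ Y) ∧ (∀ x ∈ Y, ∀ y ∈ Y, x * y = y * x) ∧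
    Zc ≤ Y}).exists_maximal
    ⟨Zc, fun x hx => hx.1, hHZ, fun x hx y hy => hy.2 x hx.1, le_rfl⟩
  obtain ⟨hYN, hHY, hYc, hZY⟩ := hZY
  let Om : Subgroup X :=
    { carrier := {x | x ∈ Y ∧ x ^ p = 1}
      one_mem' := ⟨Y.one_mem, one_pow _⟩
      mul_mem' := by
        rintro x y ⟨hx1, hx2⟩ ⟨hy1, hy2⟩
        refine ⟨Y.mul_mem hx1 hy1, ?_⟩
        rw [(show Commute x y from hYc x hx1 y hy1).mul_pow, hx2, hy2, one_mul]
      inv_mem' := by
        rintro x ⟨hx1, hx2⟩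
        exact ⟨Y.inv_mem hx1, by rw [inv_pow, hx2, inv_one]⟩ }
  obtain ⟨w, hwOm, hOm⟩ := hnoE Om (fun x hx => hYN hx.1)
    (by
      rintro h hh x ⟨hx1, hx2⟩
      exact ⟨hHY h hh x hx1, by rw [conj_pow, hx2]; group⟩)
    (fun x hx y hy => hYc x hx.1 y hy.1) (fun x hx => hx.2)
  -- a central element of order `p`
  have hnt : (⊤ : Subgroup N) ≠ ⊥ := by
    intro h
    apply hN0
    rw [eq_bot_iff]
    intro x hx
    have : (⟨x, hx⟩ : N) ∈ (⊤ : Subgroup N) := trivial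
    rw [h, mem_bot] at this
    rw [mem_bot]
    exact congrArg Subtype.val this
  obtain ⟨z', -, hz'c, hz'⟩ := exists_mem_inf_center_orderOf hN ⊤ hnt
  set z : X := (z' : X) with hz
  have hzN : ∀ g ∈ N, g * z = z * g := by
    intro g hg
    have := Subgroup.mem_center_iff.mp hz'c ⟨g, hg⟩
    exact congrArg Subtype.val this
  have hzp : z ^ p = 1 := by
    have : z' ^ p = 1 := by rw [← hz', pow_orderOf_eq_one]
    exact congrArg Subtype.val this
  have hz1 : z ≠ 1 := by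
    intro h
    have : z' = 1 := Subtype.ext h
    rw [this, orderOf_one] at hz'
    exact hp.one_lt.ne hz'
  have hzY : z ∈ Y := hZY ⟨z'.2, hzN⟩
  have hom : ∀ y ∈ Y, y ^ p = 1 → y ∈ zpowers z := by
    intro y hy hyp
    have h1 : y ∈ zpowers w := hOm ⟨hy, hyp⟩
    have h2 : z ∈ zpowers w := hOm ⟨hzY, hzp⟩
    have h3 := mem_zpowers_swap hp hwOm.2 h2 hz1
    exact (zpowers_le.mpr h3) h1
  -- `Y` is cyclic
  have hYcyc : ∃ c ∈ Y, Y ≤ zpowers c := by
    let _ : CommGroup Y := { (inferInstance : Group Y) with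
      mul_comm := fun x y => Subtype.ext (hYc x x.2 y y.2) }
    have hcyc : IsCyclic Y := by
      refine isCyclic_of_card_ker_pow_le (p := p) (hN.to_le hYN) ?_
      have h1 : Nat.card (zpowers z) = p := by
        rw [Nat.card_zpowers, orderOf_eq_prime hzp hz1]
      refine le_of_le_of_eq ?_ h1
      refine Nat.card_le_card_of_injective
        (fun x : (powMonoidHom p : Y →* Y).ker => (⟨((x : Y) : X), hom _ (x : Y).2 (by
          have := x.2
          rw [MonoidHom.mem_ker, powMonoidHom_apply] at this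
          exact congrArg Subtype.val this)⟩ : zpowers z)) ?_
      intro x y hxy
      have h2 : (((x : Y) : X)) = ((y : Y) : X) := congrArg (fun t : zpowers z => (t : X)) hxy
      exact Subtype.ext (Subtype.ext h2)
    obtain ⟨c, hc⟩ := hcyc
    refine ⟨c, c.2, fun y hy => ?_⟩
    obtain ⟨i, hi⟩ := hc ⟨y, hy⟩
    exact ⟨i, congrArg Subtype.val hi⟩
  obtain ⟨c, hcY, hgen⟩ := hYcyc
  exact ⟨z, c, Y,
    { NH := hNH
      HN := hHN
      pg := hN
      YN := hYN
      HY := hHY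
      Yc := hYc
      cen := fun x hx hxc => hZY ⟨hx, hxc⟩
      max := fun T hTN hHT hTc hYT => hYmax ⟨hTN, hHT, hTc, hZY.trans hYT⟩ hYT
      zN := hzN
      zY := hzY
      z1 := hz1
      zp := hzp
      om := hom
      cY := hcY
      gen := hgen }⟩

theorem analysis (hp2 : p ≠ 2) (hNH : N ≤ H) (hHN : ∀ h ∈ H, ∀ n ∈ N, h * n * h⁻¹ ∈ N)
    (hN : IsPGroup p N) (hN0 : N ≠ ⊥)
    (hnoE : ∀ E : Subgroup X, E ≤ N → (∀ h ∈ H, ∀ e ∈ E, h * e * h⁻¹ ∈ E) →
      (∀ a ∈ E, ∀ b ∈ E, a * b = b * a) → (∀ e ∈ E, e ^ p = 1) → ∃ x ∈ E, E ≤ zpowers x) :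
    ∃ z ∈ N, z ≠ 1 ∧ z ^ p = 1 ∧ (∀ g ∈ N, g * z = z * g) ∧ (∀ h ∈ H, h * z * h⁻¹ ∈ zpowers z) ∧
      ((∀ x ∈ N, x ≠ 1 → z ∈ zpowers x) ∨ ∃ D, Good p H N z D) := by
  have hp := hpf.out
  obtain ⟨z, c, Y, S⟩ := exists_setup hNH hHN hN hN0 hnoE
  refine ⟨z, S.YN S.zY, S.z1, S.zp, S.zN, fun h hh => ?_, ?_⟩
  · refine S.om _ (S.HY h hh z S.zY) ?_
    rw [conj_pow, S.zp]; group
  by_cases hcent : ∀ x ∈ N, (∀ y ∈ Y, x * y = y * x) → x ∈ Y
  · by_cases hne : N ≤ Y
    · left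
      intro x hx hx1
      obtain ⟨k, hk⟩ := IsPGroup.iff_orderOf.mp hN ⟨x, hx⟩
      rw [Subgroup.orderOf_mk] at hk
      rcases k with _ | k
      · rw [pow_zero, orderOf_eq_one_iff] at hk
        exact absurd hk hx1
      · have h1 : (x ^ p ^ k) ^ p = 1 := by
          rw [← pow_mul, ← pow_succ, ← hk, pow_orderOf_eq_one]
        have h2 : x ^ p ^ k ≠ 1 := by
          intro h
          have := orderOf_dvd_of_pow_eq_one h
          rw [hk] at this
          have h3 := Nat.le_of_dvd (pow_pos hp.pos k) this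
          have h4 : p ^ k < p ^ (k + 1) := Nat.pow_lt_pow_right hp.one_lt (Nat.lt_succ_self k)
          omega
        have h3 := S.om _ (Y.pow_mem (hne hx) _) h1
        have h4 := mem_zpowers_swap hp S.zp h3 h2
        exact (zpowers_le.mpr (pow_mem (mem_zpowers x) _)) h4
    · right
      exact case_three hp2 S hcent hne
  · push Not at hcent
    obtain ⟨x, hx, hxc, hxY⟩ := hcent
    right
    exact case_one hp2 S hx hxY hxc

end Cfsg.Agent.H568.PGrp
end

-- part: H568/Vector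
section
/-!
For odd `p`, every nontrivial element `a` of a normal `p`-subgroup of a group `H` of automorphisms
of an abelian `p'`-group has a vector fixed by no `H`-conjugate of `a`.
-/

set_option autoImplicit false

namespace Cfsg.Agent.H568.Vector

open Subgroup Cfsg.Agent.H568.NormMap Cfsg.Agent.H568.Imprim Cfsg.Agent.H568.Elem

universe u

theorem irreducible_case {V : Type u} [CommGroup V] [Finite V] {p : ℕ} [hpf : Fact p.Prime]
    (hp2 : p ≠ 2) (hV : ¬ p ∣ Nat.card V) (hIH : ∀ W : Subgroup V, W ≠ ⊤ → Claim p W)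
    {H : Subgroup (MulAut V)}
    (hirr : ∀ W : Subgroup V, (∀ h ∈ H, ∀ w ∈ W, h w ∈ W) → W = ⊥ ∨ W = ⊤) :
    ∀ n : ℕ, ∀ N : Subgroup (MulAut V), Nat.card N ≤ n → N ≤ H →
      (∀ h ∈ H, ∀ n ∈ N, h * n * h⁻¹ ∈ N) → IsPGroup p N →
      ∀ a ∈ N, a ≠ 1 → ∃ v : V, ∀ h ∈ H, (h * a * h⁻¹) v ≠ v := by
  have hp := hpf.out
  intro n
  induction n with
  | zero =>
    intro N hn
    have : 0 < Nat.card N := Nat.card_pos
    omega
  | succ n ih =>
    intro N hn hNH hHN hN a ha ha1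
    by_cases hE : ∀ E : Subgroup (MulAut V), E ≤ N → (∀ h ∈ H, ∀ e ∈ E, h * e * h⁻¹ ∈ E) →
      (∀ a ∈ E, ∀ b ∈ E, a * b = b * a) → (∀ e ∈ E, e ^ p = 1) → ∃ x ∈ E, E ≤ zpowers x
    swap
    · push Not at hE
      obtain ⟨E, hEN, hHE, hEc, hEp, hEnc⟩ := hE
      exact of_elementary hV hIH hNH hHN hN hEN hHE hEc hEp hEnc hirr ha ha1
    have hN0 : N ≠ ⊥ := by
      intro h
      rw [h, mem_bot] at ha
      exact ha1 ha
    obtain ⟨z, hzN, hz1, hzp, hzc, hHz, hcase⟩ :=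
      Cfsg.Agent.H568.PGrp.analysis hp2 hNH hHN hN hN0 hE
    -- `z` has no fixed points
    have hzf : ∀ v, z v = v → v = 1 := by
      have hinv : ∀ h ∈ H, ∀ w ∈ fixS (zpowers z), h w ∈ fixS (zpowers z) := by
        intro h hh w hw k hk
        obtain ⟨i, hi⟩ := hk
        have hi' : z ^ i = k := hi
        have h1 : h⁻¹ * k * h ∈ zpowers z := by
          have h2 := hHz h⁻¹ (H.inv_mem hh)
          have h3 : (h⁻¹ * z * h⁻¹⁻¹) ^ i ∈ zpowers z := zpow_mem h2 i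
          rw [conj_zpow, inv_inv, hi'] at h3
          exact h3
        have h2 : k * h = h * (h⁻¹ * k * h) := by group
        rw [← MulAut.mul_apply, h2, MulAut.mul_apply, hw _ h1]
      intro v hv
      rcases hirr _ hinv with h1 | h1
      · have h2 : v ∈ fixS (zpowers z) := by
          rintro k ⟨i, rfl⟩
          exact fix_zpow hv i
        rw [h1, mem_bot] at h2
        exact h2
      · exfalso
        apply hz1
        ext w
        have h2 : w ∈ fixS (zpowers z) := by rw [h1]; trivial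
        exact h2 z (mem_zpowers z)
    -- a nontrivial vector
    obtain ⟨v₀, hv₀⟩ : ∃ v : V, v ≠ 1 := by
      by_contra hcon
      push Not at hcon
      apply ha1
      ext v
      rw [hcon v, map_one, map_one]
    rcases hcase with hcyc | ⟨D, hD⟩
    · refine ⟨v₀, fun h hh hfix => ?_⟩
      have h1 : h * a * h⁻¹ ≠ 1 := by
        intro h2
        apply ha1
        have h3 : a = h⁻¹ * (h * a * h⁻¹) * h := by group
        rw [h3, h2]; group
      obtain ⟨i, hi⟩ := hcyc _ (hHN h hh a ha) h1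
      have hi' : (h * a * h⁻¹) ^ i = z := hi
      exact hv₀ (hzf v₀ (by rw [← hi']; exact fix_zpow hfix i))
    · have htop : (⊤ : Subgroup V) ≠ ⊥ := by
        intro h
        have : v₀ ∈ (⊤ : Subgroup V) := trivial
        rw [h, mem_bot] at this
        exact hv₀ this
      obtain ⟨u, -, hu1, hu⟩ := Cfsg.Agent.H568.Sep.exists_sep hp2 hV (Nat.card N) N D ⊤ z le_rfl
        hD.le hzN hzp hzf hzc (fun d hd g hg => hD.comm d hd g hg) hD.exp (fun _ _ _ _ => trivial)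
        htop
      -- the centralizer of `D`
      let R : Subgroup (MulAut V) :=
        { carrier := {g | g ∈ N ∧ ∀ d ∈ D, g * d = d * g}
          one_mem' := ⟨N.one_mem, fun d _ => by rw [mul_one, one_mul]⟩
          mul_mem' := by
            rintro x y ⟨hx1, hx2⟩ ⟨hy1, hy2⟩
            refine ⟨N.mul_mem hx1 hy1, fun d hd => ?_⟩
            rw [mul_assoc, hy2 d hd, ← mul_assoc, hx2 d hd, mul_assoc]
          inv_mem' := by
            rintro x ⟨hx1, hx2⟩
            exact ⟨N.inv_mem hx1, fun d hd => (show Commute x d from hx2 d hd).inv_left⟩ }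
      have hHR : ∀ h ∈ H, ∀ r ∈ R, h * r * h⁻¹ ∈ R := by
        rintro h hh r ⟨hr1, hr2⟩
        refine ⟨hHN h hh r hr1, fun d hd => ?_⟩
        have h1 : h⁻¹ * d * h ∈ D := by
          have := hD.inv h⁻¹ (H.inv_mem hh) d hd
          rwa [inv_inv] at this
        have h2 := hr2 _ h1
        calc h * r * h⁻¹ * d = h * (r * (h⁻¹ * d * h)) * h⁻¹ := by group
          _ = d * (h * r * h⁻¹) := by rw [h2]; group
      have hRN : R ≤ N := fun x hx => hx.1
      by_cases haR : a ∈ R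
      · refine ih R ?_ (hRN.trans hNH) hHR (hN.to_le hRN) a haR ha1
        have h1 : R < N := by
          refine lt_of_le_of_ne hRN fun h => ?_
          obtain ⟨d, hd, g, hg, hgd⟩ := hD.ncomm
          rw [← h] at hg
          exact hgd (hg.2 d hd)
        have h2 : Nat.card R < Nat.card N := Set.ncard_lt_ncard h1 (Set.toFinite _)
        omega
      · refine ⟨u, fun h hh hfix => haR ?_⟩
        have h1 : h * a * h⁻¹ ∈ R := ⟨hHN h hh a ha, hu _ (hHN h hh a ha) hfix⟩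
        have h2 := hHR h⁻¹ (H.inv_mem hh) _ h1
        have h3 : h⁻¹ * (h * a * h⁻¹) * h⁻¹⁻¹ = a := by group
        rwa [h3] at h2

theorem claim_all {p : ℕ} [hpf : Fact p.Prime] (hp2 : p ≠ 2) :
    ∀ n : ℕ, ∀ (V : Type u) [CommGroup V] [Finite V], Nat.card V ≤ n → ¬ p ∣ Nat.card V →
      Claim p V := by
  intro n
  induction n with
  | zero =>
    intro V _ _ hn
    have : 0 < Nat.card V := Nat.card_pos
    omega
  | succ n ih =>
    intro V _ _ hn hV
    have hIH : ∀ W : Subgroup V, W ≠ ⊤ → Claim p W := by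
      intro W hW
      refine ih W ?_ fun h => hV (h.trans W.card_subgroup_dvd_card)
      have h1 : Nat.card W < Nat.card V := by
        have h2 : W < ⊤ := lt_top_iff_ne_top.mpr hW
        have h3 : Nat.card W < Nat.card (⊤ : Subgroup V) := Set.ncard_lt_ncard h2 (Set.toFinite _)
        rwa [Subgroup.card_top] at h3
      omega
    intro H N hNH hHN hN a ha ha1
    by_cases hirr : ∀ W : Subgroup V, (∀ h ∈ H, ∀ w ∈ W, h w ∈ W) → W = ⊥ ∨ W = ⊤
    · exact irreducible_case hp2 hV hIH hirr _ N le_rfl hNH hHN hN a ha ha1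
    · push Not at hirr
      obtain ⟨W, hW, hW0, hW1⟩ := hirr
      exact of_reducible hV hIH hNH hHN hN ha ha1 hW hW0 hW1

/-- The internal version: `V` an abelian `p'`-subgroup of `G` normalized by `H`, `N` a normal
`p`-subgroup of `H`, `a ∈ N` not centralizing `V`. Then some `v ∈ V` is centralized by no
`H`-conjugate of `a`. -/
theorem exists_vector {G : Type u} [Group G] [Finite G] {p : ℕ} [hpf : Fact p.Prime] (hp2 : p ≠ 2)
    {V H N : Subgroup G} (hVc : ∀ x ∈ V, ∀ y ∈ V, x * y = y * x) (hV : ¬ p ∣ Nat.card V)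
    (hHV : ∀ h ∈ H, ∀ v ∈ V, h * v * h⁻¹ ∈ V) (hNH : N ≤ H)
    (hHN : ∀ h ∈ H, ∀ n ∈ N, h * n * h⁻¹ ∈ N) (hN : IsPGroup p N) {a : G} (ha : a ∈ N)
    (haV : ∃ v ∈ V, a * v ≠ v * a) : ∃ v ∈ V, ∀ h ∈ H, (h * a * h⁻¹) * v ≠ v * (h * a * h⁻¹) := by
  let _ : CommGroup V := { (inferInstance : Group V) with
    mul_comm := fun x y => Subtype.ext (hVc x x.2 y y.2) }
  let ρ : H →* MulAut V :=
    { toFun := fun h =>
        { toFun := fun v => ⟨h * v * (h : G)⁻¹, hHV h h.2 v v.2⟩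
          invFun := fun v => ⟨(h : G)⁻¹ * v * h, by
            have := hHV _ (H.inv_mem h.2) v v.2
            rwa [inv_inv] at this⟩
          left_inv := fun v => Subtype.ext (by simp only; group)
          right_inv := fun v => Subtype.ext (by simp only; group)
          map_mul' := fun v w => Subtype.ext (by
            change (h : G) * ((v : G) * (w : G)) * (h : G)⁻¹ =
              ((h : G) * v * (h : G)⁻¹) * ((h : G) * w * (h : G)⁻¹)
            group) }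
      map_one' := by
        ext v
        change (1 : G) * v * (1 : G)⁻¹ = v
        group
      map_mul' := fun h k => by
        ext v
        change ((h : G) * (k : G)) * v * ((h : G) * (k : G))⁻¹ =
          (h : G) * ((k : G) * v * (k : G)⁻¹) * (h : G)⁻¹
        group }
  have hρ : ∀ (h : H) (v : V), ((ρ h v : V) : G) = h * v * (h : G)⁻¹ := fun h v => rfl
  obtain ⟨v, hv⟩ := claim_all (p := p) hp2 (Nat.card V) V le_rfl hV ρ.range
    ((N.subgroupOf H).map ρ)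
    (by
      rintro _ ⟨n, _, rfl⟩
      exact ⟨n, rfl⟩)
    (by
      rintro _ ⟨h, rfl⟩ _ ⟨n, hn, rfl⟩
      exact ⟨h * n * h⁻¹, hHN h h.2 n hn, by simp⟩)
    ((hN.comap_of_injective H.subtype (Subgroup.subtype_injective H)).map ρ)
    (ρ ⟨a, hNH ha⟩) ⟨⟨a, hNH ha⟩, ha, rfl⟩
    (by
      intro h
      obtain ⟨v, hv, hav⟩ := haV
      apply hav
      have h1 : ((ρ ⟨a, hNH ha⟩ ⟨v, hv⟩ : V) : G) = v := by rw [h]; rfl
      rw [hρ] at h1
      rw [mul_inv_eq_iff_eq_mul] at h1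
      exact h1)
  refine ⟨v, v.2, fun h hh heq => ?_⟩
  refine hv (ρ ⟨h, hh⟩) ⟨_, rfl⟩ (Subtype.ext ?_)
  rw [← map_mul, ← map_inv, ← map_mul, hρ]
  change (h * a * h⁻¹) * v * (h * a * h⁻¹)⁻¹ = v
  rw [heq]; group

end Cfsg.Agent.H568.Vector
end
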