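import Mathlib
import Cfsg.Agent.H568.Vector
import Cfsg.Agent.H568.Sn
import Cfsg.Agent.Lib.SolvableMinNormal
set_option linter.all false

/-!
Reductions for the variations of the Baer-Suzuki theorem: the case of an abelian normal subgroup.
-/

set_option autoImplicit false

namespace Cfsg.Agent.H568.Reduce

open Subgroup Cfsg
open scoped Pointwise

universe u

variable {G : Type u} [Group G]

theorem mem_conj_smul {A : Subgroup G} {g x : G} : x ∈ MulAut.conj g • A ↔ g⁻¹ * x * g ∈ A := by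
  rw [Subgroup.mem_pointwise_smul_iff_inv_smul_mem]
  have h2 : (MulAut.conj g)⁻¹ • x = g⁻¹ * x * g := by
    rw [← map_inv]
    change g⁻¹ * x * g⁻¹⁻¹ = _
    rw [inv_inv]
  rw [h2]

theorem conj_mem_conj_smul {A : Subgroup G} {g a : G} (ha : a ∈ A) :
    g * a * g⁻¹ ∈ MulAut.conj g • A := by
  rw [mem_conj_smul]
  have : g⁻¹ * (g * a * g⁻¹) * g = a := by group
  rwa [this]

/-- Subnormality passes to images. -/
theorem sn_map {G' : Type*} [Group G'] (f : G →* G') {A L : Subgroup G} (hAL : A ≤ L)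
    (h : (A.subgroupOf L).IsSubnormal) : ((A.map f).subgroupOf (L.map f)).IsSubnormal := by
  have h1 := h.map (f := f.subgroupMap L) (MonoidHom.subgroupMap_surjective f L)
  have h2 : (A.subgroupOf L).map (f.subgroupMap L) = (A.map f).subgroupOf (L.map f) := by
    ext y
    constructor
    · rintro ⟨x, hx, rfl⟩
      exact ⟨x, hx, rfl⟩
    · rintro ⟨x, hx, hxy⟩
      exact ⟨⟨x, hAL hx⟩, hx, Subtype.ext hxy⟩
  rwa [h2] at h1

theorem map_conj_smul {G' : Type*} [Group G'] (f : G →* G') (A : Subgroup G) (g : G) :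
    (MulAut.conj g • A).map f = MulAut.conj (f g) • A.map f := by
  ext y
  constructor
  · rintro ⟨x, hx, rfl⟩
    have hx' : x ∈ MulAut.conj g • A := hx
    rw [mem_conj_smul] at hx' ⊢
    exact ⟨_, hx', by simp⟩
  · intro hy
    rw [mem_conj_smul] at hy
    obtain ⟨x, hx, hxy⟩ := hy
    refine ⟨g * x * g⁻¹, conj_mem_conj_smul hx, ?_⟩
    rw [map_mul, map_mul, map_inv, hxy]
    group

/-- Subnormality in a smaller overgroup. -/
theorem sn_of_le {A L M : Subgroup G} (hLM : L ≤ M) (h : (A.subgroupOf M).IsSubnormal) :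
    (A.subgroupOf L).IsSubnormal := h.comap (inclusion hLM)

/-- The commutator computation: `g ∈ V`, `A` subnormal in `⟨A, A ^ g⟩` implies that `A` centralizes
`g`. -/
theorem commute_of_sn [Finite G] {p r : ℕ} [hpf : Fact p.Prime] [hrf : Fact r.Prime] (hpr : p ≠ r)
    {V A : Subgroup G} (hV : V.Normal) (hVr : IsPGroup r V) (hA : IsPGroup p A) {g : G}
    (hg : g ∈ V) (hsn : (A.subgroupOf (A ⊔ MulAut.conj g • A)).IsSubnormal) {a : G}
    (ha : a ∈ A) : a * g = g * a := by
  set L : Subgroup G := A ⊔ MulAut.conj g • A with hL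
  have h1 := Cfsg.Agent.H568.Sn.le_pCore_of_subnormal hA hsn
  have haL : a ∈ L := (le_sup_left : A ≤ L) ha
  have hgaL : g * a * g⁻¹ ∈ L := (le_sup_right : MulAut.conj g • A ≤ L) (conj_mem_conj_smul ha)
  obtain ⟨w, hw⟩ : ∃ w, w = a⁻¹ * (g * a * g⁻¹) := ⟨_, rfl⟩
  have hwL : w ∈ L := by rw [hw]; exact L.mul_mem (L.inv_mem haL) hgaL
  have hwV : w ∈ V := by
    have : w = (a⁻¹ * g * a⁻¹⁻¹) * g⁻¹ := by rw [hw]; group
    rw [this]
    exact V.mul_mem (hV.conj_mem g hg a⁻¹) (V.inv_mem hg)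
  -- `a` and `w` commute
  have hdis : Disjoint (pCore p L) (V.subgroupOf L) :=
    IsPGroup.disjoint_of_ne p r hpr _ _ (Cfsg.Agent.Lib.Cores.pCore_isPGroup (G := L) p)
      (hVr.comap_of_injective L.subtype (Subgroup.subtype_injective L))
  have hcom := Subgroup.commute_of_normal_of_disjoint _ _
    (Cfsg.Agent.Lib.Cores.pCore_normal (G := L) p) (hV.subgroupOf L) hdis ⟨a, haL⟩ ⟨w, hwL⟩
    (h1 (show (⟨a, haL⟩ : L) ∈ A.subgroupOf L from ha)) hwV
  have hcom' : Commute a w := congrArg Subtype.val hcom.eq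
  have hga : g * a * g⁻¹ = a * w := by rw [hw]; group
  obtain ⟨k, hk⟩ := hA ⟨a, ha⟩
  have hk' : a ^ p ^ k = 1 := congrArg Subtype.val hk
  have h2 : w ^ p ^ k = 1 := by
    have h3 : (g * a * g⁻¹) ^ p ^ k = 1 := by rw [conj_pow, hk']; group
    rwa [hga, hcom'.mul_pow, hk', one_mul] at h3
  obtain ⟨l, hl⟩ := hVr ⟨w, hwV⟩
  have hl' : w ^ r ^ l = 1 := congrArg Subtype.val hl
  have h4 : w = 1 := by
    have h5 := Nat.eq_one_of_dvd_coprimes (((Nat.coprime_primes hpf.out hrf.out).mpr hpr).pow k l)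
      (orderOf_dvd_of_pow_eq_one h2) (orderOf_dvd_of_pow_eq_one hl')
    exact orderOf_eq_one_iff.mp h5
  rw [h4, mul_one, mul_inv_eq_iff_eq_mul] at hga
  exact hga.symm

/-- The case of an abelian normal subgroup. -/
theorem abelian_case [Finite G] {p r : ℕ} [hpf : Fact p.Prime] [hrf : Fact r.Prime] (hp2 : p ≠ 2)
    (hpr : p ≠ r) (hcore : pCore p G = ⊥) {V A : Subgroup G} [hV : V.Normal]
    (hVc : ∀ x ∈ V, ∀ y ∈ V, x * y = y * x) (hVr : IsPGroup r V) (hA : IsPGroup p A)
    (hAV : A.map (QuotientGroup.mk' V) ≤ pCore p (G ⧸ V))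
    (hyp : ∀ v ∈ V, ∃ g : G, IsConj v g ∧
      (A.subgroupOf (A ⊔ MulAut.conj g • A)).IsSubnormal) : A = ⊥ := by
  have hp := hpf.out
  have hpV : ¬ p ∣ Nat.card V := by
    intro h
    obtain ⟨k, hk⟩ := IsPGroup.iff_card.mp hVr
    rw [hk] at h
    exact hpr ((Nat.prime_dvd_prime_iff_eq hp hrf.out).mp (hp.dvd_of_dvd_pow h))
  set K : Subgroup G := (pCore p (G ⧸ V)).comap (QuotientGroup.mk' V) with hK
  have hcn : (pCore p (G ⧸ V)).Normal := Cfsg.Agent.Lib.Cores.pCore_normal p
  have hKn : K.Normal := hcn.comap _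
  have hVK : V ≤ K := by
    intro x hx
    rw [hK, mem_comap]
    have : QuotientGroup.mk' V x = 1 := (QuotientGroup.eq_one_iff x).mpr hx
    rw [this]
    exact one_mem _
  have hAK : A ≤ K := by
    rw [hK, ← map_le_iff_le_comap]; exact hAV
  -- a Sylow `p`-subgroup of `K` containing `A`
  obtain ⟨P', hP'⟩ := (hA.comap_of_injective K.subtype (Subgroup.subtype_injective K) :
    IsPGroup p (A.subgroupOf K)).exists_le_sylow
  set P : Subgroup G := (P' : Subgroup K).map K.subtype with hP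
  have hPK : P ≤ K := by
    rintro _ ⟨x, _, rfl⟩
    exact x.2
  have hPp : IsPGroup p P := P'.isPGroup'.map _
  have hAP : A ≤ P := by
    intro a ha
    exact ⟨⟨a, hAK ha⟩, hP' (show (⟨a, hAK ha⟩ : K) ∈ A.subgroupOf K from ha), rfl⟩
  set H : Subgroup G := normalizer (P : Set G) with hH
  have hHK : H ⊔ K = ⊤ := Sylow.normalizer_sup_eq_top P'
  -- `K = V P`
  have hVP : V ⊔ P = K := by
    refine le_antisymm (sup_le hVK hPK) ?_
    have h1 : (V ⊔ P).relIndex K ∣ V.relIndex K := relIndex_dvd_of_le_left K le_sup_left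
    have h2 : (V ⊔ P).relIndex K ∣ P.relIndex K := relIndex_dvd_of_le_left K le_sup_right
    have h3 : ¬ p ∣ P.relIndex K := by
      have h4 : P.subgroupOf K = (P' : Subgroup K) := by
        rw [hP, subgroupOf, comap_map_eq_self_of_injective (Subgroup.subtype_injective K)]
      rw [relIndex, h4]
      exact P'.not_dvd_index
    have h5 : ∃ k : ℕ, V.relIndex K = p ^ k := by
      have h6 : IsPGroup p (K.map (QuotientGroup.mk' V)) :=
        (Cfsg.Agent.Lib.Cores.pCore_isPGroup (G := G ⧸ V) p).to_le (by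
          rw [hK]; exact map_comap_le _ _)
      obtain ⟨k, hk⟩ := IsPGroup.iff_card.mp h6
      refine ⟨k, ?_⟩
      have h7 := relIndex_ker (K := K) (QuotientGroup.mk' V)
      rw [QuotientGroup.ker_mk'] at h7
      rw [h7, hk]
    obtain ⟨k, hk⟩ := h5
    rw [hk] at h1
    have h8 : (V ⊔ P).relIndex K = 1 :=
      Nat.eq_one_of_dvd_coprimes (((Nat.Prime.coprime_iff_not_dvd hp).mpr h3).pow_left k) h1 h2
    exact relIndex_eq_one.mp h8
  have hPH : P ≤ H := le_normalizer
  -- every element of `G` is `v * h`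
  have hdec : ∀ x : G, ∃ v ∈ V, ∃ h ∈ H, x = v * h := by
    intro x
    have h1 : V ⊔ H = ⊤ := by
      rw [eq_top_iff, ← hHK]
      refine sup_le le_sup_right ?_
      rw [← hVP]
      exact sup_le le_sup_left (hPH.trans le_sup_right)
    have h2 : x ∈ V ⊔ H := by rw [h1]; trivial
    obtain ⟨v, hv, h, hh, hvh⟩ := Subgroup.mem_sup_of_normal_left.mp h2
    exact ⟨v, hv, h, hh, hvh.symm⟩
  -- `A` centralizes `V`
  have hAcV : ∀ a ∈ A, ∀ v ∈ V, a * v = v * a := by
    intro a ha
    by_contra hcon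
    push Not at hcon
    obtain ⟨v, hv, hvh⟩ := Cfsg.Agent.H568.Vector.exists_vector (V := V) (H := H) (N := P) hp2 hVc
      hpV (fun h _ v hv => hV.conj_mem v hv h) hPH
      (fun h hh n hn => (mem_normalizer_iff.mp hh n).mp hn) hPp (hAP ha) hcon
    obtain ⟨g, hg, hsn⟩ := hyp v hv
    obtain ⟨x, hx⟩ := isConj_iff.mp hg
    obtain ⟨v', hv', h, hh, rfl⟩ := hdec x
    have hgV : g ∈ V := by rw [← hx]; exact hV.conj_mem v hv _
    have h1 := commute_of_sn hpr hV hVr hA hgV hsn ha
    have h2 : g = h * v * h⁻¹ := by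
      have h3 : v' * h * v * (v' * h)⁻¹ = v' * (h * v * h⁻¹) * v'⁻¹ := by group
      have h4 := hVc v' hv' (h * v * h⁻¹) (hV.conj_mem v hv h)
      rw [← hx, h3, h4]; group
    refine hvh h⁻¹ (H.inv_mem hh) ?_
    rw [h2] at h1
    calc h⁻¹ * a * h⁻¹⁻¹ * v = h⁻¹ * (a * (h * v * h⁻¹)) * h := by group
      _ = v * (h⁻¹ * a * h⁻¹⁻¹) := by rw [h1]; group
  -- the subgroup `K ⊓ C(V)`
  set K₀ : Subgroup G := K ⊓ centralizer (V : Set G) with hK₀
  have hK₀n : K₀.Normal := by
    have : (centralizer (V : Set G)).Normal := Subgroup.normal_centralizer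
    infer_instance
  set P₀ : Subgroup G := P ⊓ centralizer (V : Set G) with hP₀
  have hP₀K₀ : P₀ ≤ K₀ := inf_le_inf_right _ hPK
  have hP₀n : (P₀.subgroupOf K₀).Normal := by
    refine ⟨fun n hn g => ?_⟩
    rw [mem_subgroupOf] at hn ⊢
    have hgK : (g : G) ∈ V ⊔ P := by rw [hVP]; exact g.2.1
    obtain ⟨v, hv, y, hy, hvy⟩ := Subgroup.mem_sup_of_normal_left.mp hgK
    have hyc : y ∈ centralizer (V : Set G) := by
      have h1 : v ∈ centralizer (V : Set G) := by
        rw [mem_centralizer_iff]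
        exact fun w hw => hVc w hw v hv
      have h2 : y = v⁻¹ * (g : G) := by rw [← hvy]; group
      rw [h2]
      exact mul_mem (inv_mem h1) g.2.2
    have h3 : ((g * n * g⁻¹ : K₀) : G) = y * n * y⁻¹ := by
      change (g : G) * (n : G) * (g : G)⁻¹ = _
      rw [← hvy]
      have h4 : y * (n : G) * y⁻¹ ∈ centralizer (V : Set G) :=
        mul_mem (mul_mem hyc hn.2) (inv_mem hyc)
      have h5 := mem_centralizer_iff.mp h4 v hv
      calc v * y * (n : G) * (v * y)⁻¹ = (v * (y * (n : G) * y⁻¹)) * v⁻¹ := by group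
        _ = y * n * y⁻¹ := by rw [h5]; group
    rw [h3]
    exact ⟨P.mul_mem (P.mul_mem hy hn.1) (P.inv_mem hy),
      (centralizer (V : Set G)).mul_mem ((centralizer (V : Set G)).mul_mem hyc hn.2)
        ((centralizer (V : Set G)).inv_mem hyc)⟩
  have h1 := Cfsg.Agent.PLocal.SubnormalCore.le_pCore_of_normal_subnormal (p := p) hP₀K₀ hP₀n
    hK₀n.isSubnormal (hPp.to_le inf_le_left)
  rw [hcore] at h1
  rw [eq_bot_iff]
  refine le_trans ?_ h1
  intro a ha
  refine ⟨hAP ha, ?_⟩
  exact mem_centralizer_iff.mpr fun v hv => (hAcV a ha v hv).symm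

/-- The hypothesis on conjugacy classes, second form. -/
def Hyp (A : Subgroup G) : Prop :=
  ∀ c : G, ∃ g : G, IsConj c g ∧ (A.subgroupOf (A ⊔ MulAut.conj g • A)).IsSubnormal

theorem Hyp.map {G' : Type*} [Group G'] {f : G →* G'} (hf : Function.Surjective f)
    {A : Subgroup G} (h : Hyp A) : Hyp (A.map f) := by
  intro c
  obtain ⟨c, rfl⟩ := hf c
  obtain ⟨g, hg, hsn⟩ := h c
  refine ⟨f g, ?_, ?_⟩
  · obtain ⟨x, hx⟩ := isConj_iff.mp hg
    exact isConj_iff.mpr ⟨f x, by rw [← hx]; simp⟩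
  · have h1 := sn_map f le_sup_left hsn
    rwa [Subgroup.map_sup, map_conj_smul] at h1

/-- If `O_p(G) ≠ 1`, pass to the quotient. -/
theorem of_core_ne_bot [Finite G] {p : ℕ} [Fact p.Prime] {A : Subgroup G}
    (h : A.map (QuotientGroup.mk' (pCore p G)) ≤ pCore p (G ⧸ pCore p G)) : A ≤ pCore p G := by
  rw [Cfsg.Agent.Lib.Cores.pCore_quotient_pCore, le_bot_iff, Subgroup.map_eq_bot_iff,
    QuotientGroup.ker_mk'] at h
  exact h

theorem solvable_main {p : ℕ} [hpf : Fact p.Prime] (hp2 : p ≠ 2) :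
    ∀ n : ℕ, ∀ (G : Type u) [Group G] [Finite G], Nat.card G ≤ n → Group.IsSolvable G →
      ∀ A : Subgroup G, IsPGroup p A → Hyp A → A ≤ pCore p G := by
  intro n
  induction n with
  | zero =>
    intro G _ _ hn
    have : 0 < Nat.card G := Nat.card_pos
    omega
  | succ n ih =>
    intro G _ _ hn hG A hA hyp
    have hquot : ∀ N : Subgroup G, N ≠ ⊥ → [hN : N.Normal] →
        A.map (QuotientGroup.mk' N) ≤ pCore p (G ⧸ N) := by
      intro N hN0 hN
      refine ih (G ⧸ N) ?_ inferInstance _ (hA.map _)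
        (hyp.map (QuotientGroup.mk'_surjective N))
      have h1 := Subgroup.card_eq_card_quotient_mul_card_subgroup N
      have h2 : 1 < Nat.card N := by
        rw [Finite.one_lt_card_iff_nontrivial, Subgroup.nontrivial_iff_ne_bot]
        exact hN0
      have h3 : 0 < Nat.card (G ⧸ N) := Nat.card_pos
      nlinarith
    by_cases hcore : pCore p G = ⊥
    · by_cases hnt : Nontrivial G
      · obtain ⟨r, hr, V, hVchar, hVc, hVr, hV0⟩ :=
          Cfsg.Agent.Lib.SolvableMinNormal.exists_characteristic_pgroup (G := G)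
        have hrf : Fact r.Prime := ⟨hr⟩
        have hpr : p ≠ r := by
          rintro rfl
          have h1 := Cfsg.Agent.Lib.Cores.le_pCore (p := p) (N := V) inferInstance hVr
          rw [hcore, le_bot_iff] at h1
          exact hV0 h1
        have h1 := abelian_case (V := V) (A := A) hp2 hpr hcore
          (fun x hx y hy => congrArg Subtype.val (hVc.is_comm.comm (⟨x, hx⟩ : V) ⟨y, hy⟩))
          hVr hA (hquot V hV0) (fun v _ => hyp v)
        rw [h1]
        exact bot_le
      · rw [not_nontrivial_iff_subsingleton] at hnt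
        intro x _
        rw [Subsingleton.elim x 1]
        exact one_mem _
    · have := Cfsg.Agent.Lib.Cores.pCore_normal (G := G) p
      exact of_core_ne_bot (hquot (pCore p G) hcore)

end Cfsg.Agent.H568.Reduce
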